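import Cfsg.Agent.H6.Repl
import Cfsg.Agent.H6.Omega

/-! Sylow subgroups extraspecial of order `p³` and exponent `p²` -/

set_option autoImplicit false
set_option linter.unusedSectionVars false
open Cfsg Subgroup
open scoped commutatorElement

namespace Cfsg.Agent.H6

section
variable {G : Type*} [Group G]

theorem weyl_inv {x z u v : G} (hxz : x * z = z * x) (hux : u * x * u⁻¹ = z * x) (huz : u * z * u⁻¹ = z)
    (hvx : v * x * v⁻¹ = x) (hvz : v * z * v⁻¹ = z * x⁻¹) :
    ((u * v * u) * (u * v * u)) * x * ((u * v * u) * (u * v * u))⁻¹ = x⁻¹ ∧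
    ((u * v * u) * (u * v * u)) * z * ((u * v * u) * (u * v * u))⁻¹ = z⁻¹ := by
  obtain ⟨w, hw⟩ : ∃ w, w = u * v * u := ⟨_, rfl⟩
  rw [← hw]
  have hwa : ∀ a, w * a * w⁻¹ = u * (v * (u * a * u⁻¹) * v⁻¹) * u⁻¹ := by intro a; rw [hw]; group
  have hmul : ∀ g a b : G, g * (a * b) * g⁻¹ = (g * a * g⁻¹) * (g * b * g⁻¹) := by intro g a b; group
  have hinv : ∀ g a : G, g * a⁻¹ * g⁻¹ = (g * a * g⁻¹)⁻¹ := by intro g a; group
  have h1 : w * x * w⁻¹ = z := by
    have : w * x * w⁻¹ = u * (v * (z * x) * v⁻¹) * u⁻¹ := by rw [hwa, hux]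
    rw [this, hmul v, hvx, hvz, inv_mul_cancel_right, huz]
  have h2 : w * z * w⁻¹ = x⁻¹ := by
    have h0 : w * z * w⁻¹ = u * (z * x⁻¹) * u⁻¹ := by rw [hwa, huz, hvz]
    rw [h0, hmul u, hinv u, huz, hux, ← hxz]
    group
  have h3 : ∀ a, (w * w) * a * (w * w)⁻¹ = w * (w * a * w⁻¹) * w⁻¹ := by intro a; group
  refine ⟨?_, ?_⟩
  · rw [h3, h1, h2]
  · rw [h3, h2, hinv, h1]

theorem conj_pow_central {a b c : G} (h : a * b * a⁻¹ = c * b) (hca : a * c = c * a) (n : ℕ) :
    a ^ n * b * (a ^ n)⁻¹ = c ^ n * b := by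
  induction n with
  | zero => simp
  | succ n ih =>
    have hc : Commute a (c ^ n) := (Commute.pow_right (show Commute a c from hca) n)
    calc a ^ (n + 1) * b * (a ^ (n + 1))⁻¹ = a * (a ^ n * b * (a ^ n)⁻¹) * a⁻¹ := by rw [pow_succ']; group
      _ = a * c ^ n * b * a⁻¹ := by rw [ih]; group
      _ = c ^ n * (a * b * a⁻¹) := by rw [hc.eq]; group
      _ = c ^ (n + 1) * b := by rw [h, pow_succ]; group

variable [Finite G] {p : ℕ} [hp : Fact p.Prime]

theorem exp2_closed (hp2 : p ≠ 2) (P : Sylow p G) (hE : IsExtraspecial p ↥(P : Subgroup G))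
    (hcard : Nat.card (P : Subgroup G) = p ^ 3) (hexp : ∃ y ∈ (P : Subgroup G), y ^ p ≠ 1)
    (z0 g : G) (hz0 : z0 ∈ (center ↥(P : Subgroup G)).map (P : Subgroup G).subtype)
    (hx : g * z0 * g⁻¹ ∈ (P : Subgroup G)) (hxZ : g * z0 * g⁻¹ ∉ (center ↥(P : Subgroup G)).map (P : Subgroup G).subtype) : False := by
  obtain ⟨⟨hEp, -, hcomm⟩, hZc⟩ := hE
  obtain ⟨Z, hZ⟩ : ∃ Z, Z = (center ↥(P : Subgroup G)).map (P : Subgroup G).subtype := ⟨_, rfl⟩
  obtain ⟨x, hxdef⟩ : ∃ x, x = g * z0 * g⁻¹ := ⟨_, rfl⟩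
  rw [← hZ] at hz0 hxZ
  rw [← hxdef] at hx hxZ
  have hmemZ : ∀ z, z ∈ Z ↔ z ∈ (P : Subgroup G) ∧ ∀ a ∈ (P : Subgroup G), a * z = z * a := by
    intro z
    rw [hZ]
    constructor
    · rintro ⟨z, hz, rfl⟩
      exact ⟨z.2, fun a ha => congrArg Subtype.val ((mem_center_iff.1 hz) ⟨a, ha⟩)⟩
    · rintro ⟨hzP, hz⟩
      exact ⟨⟨z, hzP⟩, mem_center_iff.2 fun a => Subtype.ext (hz a a.2), rfl⟩
  have hZP : Z ≤ (P : Subgroup G) := fun z hz => ((hmemZ z).1 hz).1
  have hZcard : Nat.card Z = p := by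
    rw [hZ, Subgroup.card_map_of_injective (Subgroup.subtype_injective _), hZc]
  have F1 : ∀ a ∈ (P : Subgroup G), ∀ b ∈ (P : Subgroup G), ⁅a, b⁆ ∈ Z := by
    intro a ha b hb
    rw [hZ]
    refine ⟨⁅(⟨a, ha⟩ : ↥(P : Subgroup G)), ⟨b, hb⟩⁆, ?_, rfl⟩
    rw [SetLike.mem_coe, ← hcomm]
    exact commutator_mem_commutator (mem_top _) (mem_top _)
  have F2 : ∀ z ∈ Z, z ^ p = 1 := by
    intro z hz
    rw [← orderOf_dvd_iff_pow_eq_one, ← hZcard]
    exact Subgroup.orderOf_dvd_natCard _ hz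
  have F3 : ∀ a ∈ (P : Subgroup G), a ^ p ∈ Z := by
    intro a ha
    rw [hmemZ]
    refine ⟨pow_mem ha _, fun b hb => ?_⟩
    have h1 : a * b * a⁻¹ = ⁅a, b⁆ * b := by rw [commutatorElement_def]; group
    have h2 := conj_pow_central h1 (((hmemZ _).1 (F1 a ha b hb)).2 a ha) p
    rw [F2 _ (F1 a ha b hb), one_mul] at h2
    calc b * a ^ p = (a ^ p * b * (a ^ p)⁻¹) * a ^ p := by rw [h2]
      _ = a ^ p * b := by group
  have F4 : ∀ a ∈ (P : Subgroup G), ∀ b ∈ (P : Subgroup G), (a * b) ^ p = a ^ p * b ^ p := by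
    intro a ha b hb
    have h1 := (hmemZ _).1 (F1 b hb a ha)
    rw [mul_pow_of_comm_central (h1.2 a ha).symm (h1.2 b hb).symm p]
    have h2 : p * (p - 1) / 2 = p * ((p - 1) / 2) := by
      have : 2 ∣ p - 1 := by
        have := hp.out.eq_two_or_odd
        omega
      exact Nat.mul_div_assoc p this
    rw [h2, pow_mul, F2 _ (F1 b hb a ha), one_pow, mul_one]
  -- Omega
  obtain ⟨W, hW⟩ : ∃ W : Subgroup G, ∀ a, a ∈ W ↔ a ∈ (P : Subgroup G) ∧ a ^ p = 1 := by
    refine ⟨{ carrier := {a | a ∈ (P : Subgroup G) ∧ a ^ p = 1}, mul_mem' := ?_, one_mem' := ⟨one_mem _, one_pow _⟩, inv_mem' := ?_ }, fun a => Iff.rfl⟩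
    · rintro a b ⟨ha, ha1⟩ ⟨hb, hb1⟩
      exact ⟨mul_mem ha hb, by rw [F4 a ha b hb, ha1, hb1, one_mul]⟩
    · rintro a ⟨ha, ha1⟩
      exact ⟨inv_mem ha, by rw [inv_pow, ha1, inv_one]⟩
  have hWP : W ≤ (P : Subgroup G) := fun a ha => ((hW a).1 ha).1
  have hZW : Z ≤ W := fun z hz => (hW z).2 ⟨hZP hz, F2 z hz⟩
  have hp1 := hp.out.one_lt
  have hWlt : W < (P : Subgroup G) := by
    refine lt_of_le_of_ne hWP fun he => ?_
    obtain ⟨y, hy, hy1⟩ := hexp
    rw [← he] at hy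
    exact hy1 ((hW y).1 hy).2
  have hdiv : ∀ K : Subgroup G, K ≤ (P : Subgroup G) → ∃ k ≤ 3, Nat.card K = p ^ k := by
    intro K hK
    have h1 := Subgroup.card_dvd_of_le hK
    rw [hcard] at h1
    exact (Nat.dvd_prime_pow hp.out).1 h1
  have hWcard : Nat.card W = p ^ 2 := by
    -- the power map
    let φ : ↥(P : Subgroup G) →* ↥(P : Subgroup G) :=
      { toFun := fun a => a ^ p
        map_one' := one_pow _
        map_mul' := fun a b => Subtype.ext (F4 a a.2 b b.2) }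
    have h1 : φ.ker = W.subgroupOf (P : Subgroup G) := by
      ext a
      rw [MonoidHom.mem_ker, mem_subgroupOf, hW]
      constructor
      · intro h; exact ⟨a.2, congrArg Subtype.val h⟩
      · intro h; exact Subtype.ext h.2
    have h2 : φ.range ≤ center ↥(P : Subgroup G) := by
      rintro _ ⟨a, rfl⟩
      rw [mem_center_iff]
      intro b
      exact Subtype.ext (((hmemZ _).1 (F3 a a.2)).2 b b.2)
    have h3 : Nat.card φ.range ∣ p := (Subgroup.card_dvd_of_le h2).trans (dvd_of_eq hZc)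
    have h4 : Nat.card φ.ker * φ.ker.index = p ^ 3 := by rw [Subgroup.card_mul_index, hcard]
    have h5 : φ.ker.index = Nat.card φ.range := Subgroup.index_ker φ
    have h6 : Nat.card φ.ker = Nat.card W := by
      rw [h1]; exact Nat.card_congr (Subgroup.subgroupOfEquivOfLe hWP).toEquiv
    rw [h5, h6] at h4
    obtain ⟨k, hk, hk2⟩ := hdiv W hWP
    have h7 : Nat.card W < p ^ 3 := by rw [← hcard]; exact card_lt_of_lt hWlt
    have h8 : k < 3 := by
      rw [hk2] at h7
      exact (Nat.pow_lt_pow_iff_right hp1).1 h7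
    have h9 : 2 ≤ k := by
      have h10 := Nat.le_of_dvd hp.out.pos h3
      rw [hk2] at h4
      have h11 : p ^ 3 ≤ p ^ k * p := by
        rw [← h4]; exact Nat.mul_le_mul_left _ h10
      rw [← pow_succ] at h11
      have := (Nat.pow_le_pow_iff_right hp1).1 h11
      omega
    have : k = 2 := by omega
    rw [hk2, this]
  have hWab : IsMulCommutative ↥W := by
    exact IsPGroup.isMulCommutative_of_card_eq_prime_sq hWcard
  have hz0p : z0 ^ p = 1 := F2 z0 hz0
  have hxp : x ^ p = 1 := by rw [hxdef, conj_pow, hz0p]; simp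
  have hxW : x ∈ W := (hW x).2 ⟨hx, hxp⟩
  have hx1 : x ≠ 1 := fun h => hxZ (h ▸ one_mem _)
  have hxo : orderOf x = p := orderOf_eq_prime hxp hx1
  -- C_P(x) = W
  have hCx : (P : Subgroup G) ⊓ centralizer ({x} : Set G) = W := by
    have h1 : W ≤ (P : Subgroup G) ⊓ centralizer ({x} : Set G) := by
      refine le_inf hWP ?_
      intro a ha
      rw [mem_centralizer_singleton_iff]
      exact comm_of_isMulComm hWab ha hxW
    obtain ⟨k, hk, hk2⟩ := hdiv ((P : Subgroup G) ⊓ centralizer ({x} : Set G)) inf_le_left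
    have h2 : (P : Subgroup G) ⊓ centralizer ({x} : Set G) ≠ P := by
      intro he
      apply hxZ
      rw [hmemZ]
      refine ⟨hx, fun a ha => ?_⟩
      rw [← he] at ha
      exact mem_centralizer_singleton_iff.1 (mem_inf.1 ha).2
    have h3 : Nat.card ↥((P : Subgroup G) ⊓ centralizer ({x} : Set G)) < p ^ 3 := by
      rw [← hcard]; exact card_lt_of_lt (lt_of_le_of_ne inf_le_left h2)
    have h4 : k ≤ 2 := by
      rw [hk2] at h3
      have := (Nat.pow_lt_pow_iff_right hp1).1 h3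
      omega
    refine (Subgroup.eq_of_le_of_card_ge h1 ?_).symm
    rw [hk2, hWcard]
    exact Nat.pow_le_pow_right hp.out.pos h4
  have hPn : (P : Subgroup G) ≤ normalizer (W : Set G) := by
    rw [le_norm_iff]
    intro a ha b hb
    rw [hW] at hb ⊢
    refine ⟨mul_mem (mul_mem ha hb.1) (inv_mem ha), by rw [conj_pow, hb.2]; simp⟩
  have hPt : SylIn p (P : Subgroup G) ⊤ := sylow_sylIn_top P
  have hCn : normalizer (W : Set G) ≤ normalizer ((centralizer (W : Set G) : Subgroup G) : Set G) := by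
    intro a ha
    rw [mem_norm, cj_centralizer, cj_of_mem_norm ha]
  have hPC : (P : Subgroup G) ⊓ centralizer (W : Set G) = W := by
    refine le_antisymm ?_ ?_
    · exact (inf_le_inf_left _ (centralizer_le (Set.singleton_subset_iff.2 hxW))).trans hCx.le
    · refine le_inf hWP ?_
      intro a ha
      rw [mem_centralizer_iff]
      exact fun b hb => comm_of_isMulComm hWab hb ha
  have hWC : SylIn p (W ⊓ centralizer (W : Set G)) (centralizer (W : Set G)) := by
    have h1 := sylIn_inf_normal (hPt.of_le hPn le_top) (M := centralizer (W : Set G)) (centralizer_le_normalizer _) hCn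
    rw [hPC] at h1
    have h2 : W ⊓ centralizer (W : Set G) = W := by
      rw [inf_eq_left]; exact h1.le
    rwa [h2]
  have hWle : W ≤ centralizer (W : Set G) := hPC.ge.trans inf_le_right
  obtain ⟨hK1, hK2⟩ := centric_split (P.2.to_le hWP) hWC
  obtain ⟨K, hK⟩ : ∃ K, K = opR p (centralizer (W : Set G)) := ⟨_, rfl⟩
  rw [← hK] at hK1 hK2
  rw [inf_eq_left.2 hWle] at hK2
  have hKn : normalizer (W : Set G) ≤ normalizer (K : Set G) := by
    intro a ha
    rw [mem_norm, hK, opR_cj, cj_centralizer, cj_of_mem_norm ha]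
  -- k ∈ N(W) with k z0 k⁻¹ = x
  obtain ⟨k, hkn, hkz⟩ : ∃ k ∈ normalizer (W : Set G), k * z0 * k⁻¹ = x := by
    have h1 : cj g (P : Subgroup G) ≤ centralizer ({x} : Set G) := by
      intro a ha
      rw [mem_cj] at ha
      rw [mem_centralizer_singleton_iff, hxdef]
      have h2 := ((hmemZ z0).1 hz0).2 _ ha
      calc a * (g * z0 * g⁻¹) = g * (g⁻¹ * a * g * z0) * g⁻¹ := by group
        _ = g * (z0 * (g⁻¹ * a * g)) * g⁻¹ := by rw [h2]
        _ = _ := by group
    have h2 : SylIn p (cj g (P : Subgroup G)) (centralizer ({x} : Set G)) := by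
      have := (sylow_sylIn_top (g • P)).of_le (K := centralizer ({x} : Set G)) h1 le_top
      exact this
    have h3 : W ≤ centralizer ({x} : Set G) := by rw [← hCx]; exact inf_le_right
    obtain ⟨c, hc, hcW⟩ := h2.exists_conj_le (P.2.to_le hWP) h3
    have h4 : cj (g⁻¹ * c) W ≤ (P : Subgroup G) := by
      rw [cj_mul, cj_le_iff, inv_inv]; exact hcW
    have h5 : cj (g⁻¹ * c) W = W := by
      refine Subgroup.eq_of_le_of_card_ge ?_ (card_cj _ _).ge
      intro a ha
      rw [hW]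
      refine ⟨h4 ha, ?_⟩
      have h6 := ((hW _).1 (mem_cj.1 ha)).2
      have e : (g⁻¹ * c)⁻¹ * a * (g⁻¹ * c) = (g⁻¹ * c)⁻¹ * a * (g⁻¹ * c)⁻¹⁻¹ := by rw [inv_inv]
      rw [e, conj_pow] at h6
      have := congrArg (fun y => (g⁻¹ * c) * y * (g⁻¹ * c)⁻¹) h6
      simpa [mul_assoc] using this
    refine ⟨c⁻¹ * g, ?_, ?_⟩
    · have := inv_mem (mem_norm.2 h5)
      simpa using this
    · have h6 := mem_centralizer_singleton_iff.1 hc
      calc c⁻¹ * g * z0 * (c⁻¹ * g)⁻¹ = c⁻¹ * (g * z0 * g⁻¹) * c := by group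
        _ = c⁻¹ * (x * c) := by rw [← hxdef]; group
        _ = c⁻¹ * (c * x) := by rw [h6]
        _ = x := by group
  -- the first transvection
  obtain ⟨u, hu, z, hzZ, hz1, hux⟩ : ∃ u ∈ (P : Subgroup G), ∃ z ∈ Z, z ≠ 1 ∧ u * x * u⁻¹ = z * x := by
    by_contra hcon
    push Not at hcon
    apply hxZ
    rw [hmemZ]
    refine ⟨hx, fun a ha => ?_⟩
    have h1 : a * x * a⁻¹ = ⁅a, x⁆ * x := by rw [commutatorElement_def]; group
    by_cases h2 : ⁅a, x⁆ = 1
    · rw [h2, one_mul] at h1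
      have := congrArg (fun y => y * a) h1
      simpa [mul_assoc] using this
    · exact absurd h1 (hcon a ha _ (F1 a ha x hx) h2)
  have hzW := hZW hzZ
  have hxz : x * z = z * x := comm_of_isMulComm hWab hxW hzW
  have huz : u * z * u⁻¹ = z := by
    rw [((hmemZ z).1 hzZ).2 u hu]; group
  -- x-centralizing Sylow subgroup of N(W)
  have hZx : ∀ w, w ∈ cj k Z → w ∈ zpowers x := by
    intro w hw
    have h1 : cj k Z = zpowers x := by
      refine (Subgroup.eq_of_le_of_card_ge ?_ ?_).symm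
      · rw [zpowers_le, mem_cj, ← hkz]
        have : k⁻¹ * (k * z0 * k⁻¹) * k = z0 := by group
        rw [this]; exact hz0
      · rw [card_cj, hZcard, Nat.card_zpowers, hxo]
    rwa [← h1]
  obtain ⟨v, hvx, hvz, hvn⟩ : ∃ v : G, v * x * v⁻¹ = x ∧ v * z * v⁻¹ = z * x⁻¹ ∧ v ∈ normalizer (W : Set G) := by
    -- some element of cj k P moves z
    have h0 : ∀ a ∈ (P : Subgroup G), (k * a * k⁻¹) * x * (k * a * k⁻¹)⁻¹ = x := by
      intro a ha
      have h1 := ((hmemZ z0).1 hz0).2 a ha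
      calc (k * a * k⁻¹) * x * (k * a * k⁻¹)⁻¹ = k * (a * (k⁻¹ * x * k)) * a⁻¹ * k⁻¹ := by group
        _ = k * (a * z0) * a⁻¹ * k⁻¹ := by rw [← hkz]; group
        _ = k * (z0 * a) * a⁻¹ * k⁻¹ := by rw [h1]
        _ = x := by rw [← hkz]; group
    obtain ⟨a, ha, hne⟩ : ∃ a ∈ (P : Subgroup G), (k * a * k⁻¹) * z * (k * a * k⁻¹)⁻¹ ≠ z := by
      by_contra hcon
      push Not at hcon
      -- then k⁻¹ z k ∈ Z, z ∈ ⟨x⟩
      have h1 : k⁻¹ * z * k ∈ Z := by
        rw [hmemZ]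
        have h2 : k⁻¹ * z * k ∈ W := by
          have := (Subgroup.mem_normalizer_iff.1 (inv_mem hkn) z).1 hzW
          rwa [inv_inv] at this
        refine ⟨hWP h2, fun a ha => ?_⟩
        have h3 := hcon a ha
        have h4 : k * a * k⁻¹ * z = z * (k * a * k⁻¹) := by
          have := congrArg (fun y => y * (k * a * k⁻¹)) h3
          simpa [mul_assoc] using this
        calc a * (k⁻¹ * z * k) = k⁻¹ * (k * a * k⁻¹ * z) * k := by group
          _ = k⁻¹ * (z * (k * a * k⁻¹)) * k := by rw [h4]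
          _ = _ := by group
      have h5 : z ∈ zpowers x := hZx z (mem_cj.2 h1)
      have h6 : zpowers z = zpowers x := by
        refine Subgroup.eq_of_le_of_card_ge (by rwa [zpowers_le]) ?_
        rw [Nat.card_zpowers, Nat.card_zpowers, hxo, orderOf_eq_prime (F2 z hzZ) hz1]
      apply hxZ
      have h7 : zpowers z ≤ Z := by rwa [zpowers_le]
      exact h7 (h6 ▸ mem_zpowers x)
    obtain ⟨v, hv⟩ : ∃ v, v = k * a * k⁻¹ := ⟨_, rfl⟩
    have hvx := h0 a ha
    rw [← hv] at hvx hne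
    have hvn : v ∈ normalizer (W : Set G) := by
      rw [hv]; exact mul_mem (mul_mem hkn (hPn ha)) (inv_mem hkn)
    have h1 : v * z * v⁻¹ * z⁻¹ ∈ zpowers x := by
      apply hZx
      rw [mem_cj]
      have h2 : k⁻¹ * z * k ∈ (P : Subgroup G) := by
        have := (Subgroup.mem_normalizer_iff.1 (inv_mem hkn) z).1 hzW
        rw [inv_inv] at this
        exact hWP this
      have e : k⁻¹ * (v * z * v⁻¹ * z⁻¹) * k = ⁅a, k⁻¹ * z * k⁆ := by
        rw [hv, commutatorElement_def]; group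
      rw [e]
      exact F1 a ha _ h2
    obtain ⟨b, hb⟩ := mem_zpowers_iff.1 h1
    have hb0 : x ^ b ≠ 1 := by
      intro h
      rw [h] at hb
      apply hne
      have := congrArg (fun y => y * z) hb
      simpa using this.symm
    have hvz0 : v * z * v⁻¹ = x ^ b * z := by rw [hb]; group
    -- invert b
    have hbp : (x ^ b) ^ p = 1 := by
      rw [← zpow_natCast, ← zpow_mul, mul_comm, zpow_mul, zpow_natCast, hxp, one_zpow]
    obtain ⟨n, hn⟩ : ∃ n : ℕ, (x ^ b) ^ n = x⁻¹ := by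
      have h2 : zpowers (x ^ b) = zpowers x := by
        refine Subgroup.eq_of_le_of_card_ge (by rw [zpowers_le]; exact zpow_mem (mem_zpowers x) b) ?_
        rw [Nat.card_zpowers, Nat.card_zpowers, hxo, orderOf_eq_prime hbp hb0]
      have h3 : x⁻¹ ∈ zpowers (x ^ b) := by rw [h2]; exact inv_mem (mem_zpowers x)
      obtain ⟨n, hn⟩ := mem_powers_iff_mem_zpowers.2 h3
      exact ⟨n, hn⟩
    have hvb : v * x ^ b = x ^ b * v := by
      have h2 : Commute v x := by
        show v * x = x * v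
        have := congrArg (fun y => y * v) hvx
        simpa [mul_assoc] using this
      exact (h2.zpow_right b)
    refine ⟨v ^ n, ?_, ?_, pow_mem hvn _⟩
    · have h2 : Commute v x := by
        show v * x = x * v
        have := congrArg (fun y => y * v) hvx
        simpa [mul_assoc] using this
      have h3 := h2.pow_left n
      rw [h3.eq]; group
    · rw [conj_pow_central hvz0 hvb n, hn]
      have : x⁻¹ * z = z * x⁻¹ := by
        rw [eq_mul_inv_iff_mul_eq, mul_assoc, ← hxz, inv_mul_cancel_left]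
      exact this
  -- the inverting element
  obtain ⟨t, ht⟩ : ∃ t, t = (u * v * u) * (u * v * u) := ⟨_, rfl⟩
  obtain ⟨htx, htz⟩ := weyl_inv hxz hux huz hvx hvz
  rw [← ht] at htx htz
  have htn : t ∈ normalizer (W : Set G) := by
    rw [ht]
    exact mul_mem (mul_mem (mul_mem (hPn hu) hvn) (hPn hu)) (mul_mem (mul_mem (hPn hu) hvn) (hPn hu))
  have hgen : W = zpowers x ⊔ zpowers z := by
    have h1 : zpowers x ⊔ zpowers z ≤ W := sup_le (by rwa [zpowers_le]) (by rwa [zpowers_le])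
    refine (Subgroup.eq_of_le_of_card_ge h1 ?_).symm
    obtain ⟨m, hm, hm2⟩ := hdiv _ (h1.trans hWP)
    have h2 : zpowers x < zpowers x ⊔ zpowers z := by
      refine lt_of_le_of_ne le_sup_left fun he => ?_
      have h3 : z ∈ zpowers x := he.symm ▸ (mem_sup_right (mem_zpowers z))
      have h6 : zpowers z = zpowers x := by
        refine Subgroup.eq_of_le_of_card_ge (by rwa [zpowers_le]) ?_
        rw [Nat.card_zpowers, Nat.card_zpowers, hxo, orderOf_eq_prime (F2 z hzZ) hz1]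
      apply hxZ
      have h7 : zpowers z ≤ Z := by rwa [zpowers_le]
      exact h7 (h6 ▸ mem_zpowers x)
    have h4 := card_lt_of_lt h2
    rw [Nat.card_zpowers, hxo, hm2] at h4
    have h5 : 2 ≤ m := by
      have : p ^ 1 < p ^ m := by rwa [pow_one]
      have := (Nat.pow_lt_pow_iff_right hp1).1 this
      omega
    rw [hm2, hWcard]
    exact Nat.pow_le_pow_right hp.out.pos h5
  have htW : ∀ w ∈ W, t * w * t⁻¹ = w⁻¹ := by
    have hcl : W = closure {x, z} := by
      rw [hgen, zpowers_eq_closure, zpowers_eq_closure, ← Subgroup.closure_union]; rfl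
    intro w hw
    rw [hcl] at hw
    induction hw using Subgroup.closure_induction with
    | mem a ha =>
      rcases ha with rfl | ha
      · exact htx
      · rw [Set.mem_singleton_iff.1 ha]; exact htz
    | one => simp
    | mul a b ha hb iha ihb =>
      rw [← hcl] at ha hb
      have e : t * (a * b) * t⁻¹ = (t * a * t⁻¹) * (t * b * t⁻¹) := by group
      rw [e, iha, ihb, mul_inv_rev]
      exact comm_of_isMulComm hWab (inv_mem ha) (inv_mem hb)
    | inv a ha iha =>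
      have e : t * a⁻¹ * t⁻¹ = (t * a * t⁻¹)⁻¹ := by group
      rw [e, iha]
  obtain ⟨y, hy, hy1⟩ := hexp
  -- the commutator of y and t centralizes W
  have hyt : t * y * t⁻¹ * y⁻¹ ∈ centralizer (W : Set G) := by
    rw [mem_centralizer_iff]
    intro w hw
    have h1 : y⁻¹ * w * y ∈ W := by
      have := (Subgroup.mem_normalizer_iff.1 (inv_mem (hPn hy)) w).1 hw
      rwa [inv_inv] at this
    have h3 : t⁻¹ * (y⁻¹ * w * y) * t = (y⁻¹ * w * y)⁻¹ := by
      have h4 := htW _ (inv_mem h1)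
      rw [inv_inv] at h4
      have := congrArg (fun s => t⁻¹ * s * t) h4
      simpa [mul_assoc] using this.symm
    have h5 := htW _ (inv_mem hw)
    rw [inv_inv] at h5
    calc w * (t * y * t⁻¹ * y⁻¹) = (t * w⁻¹ * t⁻¹) * (t * y * t⁻¹ * y⁻¹) := by rw [h5]
      _ = t * y * (y⁻¹ * w * y)⁻¹ * t⁻¹ * y⁻¹ := by group
      _ = t * y * (t⁻¹ * (y⁻¹ * w * y) * t) * t⁻¹ * y⁻¹ := by rw [h3]
      _ = t * y * t⁻¹ * y⁻¹ * w := by group
  rw [← hK2, sup_comm] at hyt
  have hWN : W ≤ normalizer (W : Set G) := le_normalizer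
  obtain ⟨e, he, κ, hκ, hκe⟩ := (L0.mem_sup_of_normalizes' (M := K) (A := W) (hWN.trans hKn)).1 hyt
  obtain ⟨κ2, hκ2⟩ : ∃ κ2, κ2 = y⁻¹ * κ * y := ⟨_, rfl⟩
  have hκ2K : κ2 ∈ K := by
    have := (Subgroup.mem_normalizer_iff.1 (inv_mem (hKn (hPn hy))) κ).1 hκ
    rwa [inv_inv, ← hκ2] at this
  have hty : t * y * t⁻¹ = (e * y) * κ2 := by
    have := congrArg (fun s => s * y) hκe
    rw [hκ2]
    have e2 : (e * y) * (y⁻¹ * κ * y) = e * κ * y := by group
    rw [e2, hκe]; group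
  have hnk : ∀ b ∈ normalizer (K : Set G), ∀ n : ℕ, (b ^ n)⁻¹ * (b * κ2) ^ n ∈ K := by
    intro b hb n
    induction n with
    | zero => simp
    | succ m ihm =>
      have e : (b ^ (m + 1))⁻¹ * (b * κ2) ^ (m + 1) = (b⁻¹ * ((b ^ m)⁻¹ * (b * κ2) ^ m) * b) * κ2 := by
        rw [pow_succ, pow_succ]; group
      rw [e]
      refine mul_mem ?_ hκ2K
      have := (Subgroup.mem_normalizer_iff.1 (inv_mem hb) _).1 ihm
      simpa [mul_assoc] using this
  have hey : e * y ∈ normalizer (K : Set G) := hKn (mul_mem (hWN he) (hPn hy))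
  have h1 := hnk (e * y) hey p
  have hep : e ^ p = 1 := ((hW e).1 he).2
  rw [← hty, F4 e (hWP he) y hy, hep, one_mul, conj_pow] at h1
  have hyW : y ^ p ∈ W := hZW (F3 y hy)
  rw [htW _ hyW] at h1
  have h2 : (y ^ p)⁻¹ * (y ^ p)⁻¹ ∈ W ⊓ K := mem_inf.2 ⟨mul_mem (inv_mem hyW) (inv_mem hyW), h1⟩
  rw [inf_eq_bot_of_coprime (P.2.to_le hWP) hK1, mem_bot] at h2
  apply hy1
  have h3 : orderOf (y ^ p) ∣ 2 := by
    rw [orderOf_dvd_iff_pow_eq_one, pow_two]
    have := congrArg (fun s => s⁻¹) h2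
    simpa using this
  have h4 : orderOf (y ^ p) ∣ p := by
    rw [orderOf_dvd_iff_pow_eq_one]; exact ((hW _).1 hyW).2
  have h5 : Nat.Coprime 2 p := (Nat.coprime_primes Nat.prime_two hp.out).2 (Ne.symm hp2)
  exact orderOf_eq_one_iff.1 (Nat.eq_one_of_dvd_coprimes h5 h3 h4)

end

end Cfsg.Agent.H6
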