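import Cfsg.Prelude
import Cfsg.Agent.H6.Fus4

/-! lifting control of fusion from a normal subgroup -/

set_option autoImplicit false

open Cfsg Subgroup

namespace Cfsg.Agent.H6

section
variable {G : Type*} [Group G] [Finite G] {p : ℕ} [hp : Fact p.Prime]

theorem cj_sSup (g : G) (s : Set (Subgroup G)) (h : ∀ U ∈ s, cj g U = U) : cj g (sSup s) = sSup s := by
  apply le_antisymm
  · rw [cj_le_iff]
    refine sSup_le fun U hU => ?_
    rw [le_cj_iff, inv_inv, h U hU]
    exact le_sSup hU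
  · refine sSup_le fun U hU => ?_
    rw [← h U hU]
    exact cj_mono (le_sSup hU)

/-- control in `N` over `T` by the normalizer of `U` -/
def NCtrl (N T U : Subgroup G) : Prop := ∀ A : Subgroup G, A ≤ T → ∀ n ∈ N, cj n A ≤ T →
  ∃ h ∈ N ⊓ normalizer (U : Set G), ∃ c ∈ N ⊓ centralizer (A : Set G), n = h * c

theorem NCtrl.cj {N T U : Subgroup G} (h : NCtrl N T U) {x : G} (hxT : x ∈ normalizer (T : Set G))
    (hxN : x ∈ normalizer (N : Set G)) : NCtrl N T (cj x U) := by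
  intro A hA n hn hnA
  have hT : H6.cj x⁻¹ T = T := cj_of_mem_norm (inv_mem hxT)
  have hN : H6.cj x⁻¹ N = N := cj_of_mem_norm (inv_mem hxN)
  have h1 : x⁻¹ * n * x ∈ N := by
    rw [← hN, mem_cj]; simpa [mul_assoc] using hn
  obtain ⟨k, hk, c, hc, hkc⟩ := h (H6.cj x⁻¹ A) (by rw [← hT]; exact cj_mono hA) (x⁻¹ * n * x) h1 (by
    rw [← cj_mul, show x⁻¹ * n * x * x⁻¹ = x⁻¹ * n by group, cj_mul, ← hT]
    exact cj_mono hnA)
  obtain ⟨hk1, hk2⟩ := mem_inf.1 hk
  obtain ⟨hc1, hc2⟩ := mem_inf.1 hc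
  have hxN' : H6.cj x N = N := cj_of_mem_norm hxN
  refine ⟨x * k * x⁻¹, mem_inf.2 ⟨by rw [← hxN']; exact conj_mem_cj hk1, ?_⟩, x * c * x⁻¹,
    mem_inf.2 ⟨by rw [← hxN']; exact conj_mem_cj hc1, ?_⟩, ?_⟩
  · rw [← cj_normalizer]; exact conj_mem_cj hk2
  · have := conj_mem_cj (g := x) hc2
    rwa [cj_centralizer, cj_cj_inv] at this
  · calc n = x * (x⁻¹ * n * x) * x⁻¹ := by group
      _ = x * (k * c) * x⁻¹ := by rw [hkc]
      _ = _ := by group

theorem nctrl_all {N T : Subgroup G} (s : Set (Subgroup G)) (hs : ∀ U ∈ s, NCtrl N T U ∧ U ≤ T) :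
    ∀ A : Subgroup G, A ≤ T → ∀ n ∈ N, cj n A ≤ T →
      ∃ h ∈ N, (∀ U ∈ s, h ∈ normalizer (U : Set G)) ∧ ∃ c ∈ N ⊓ centralizer (A : Set G), n = h * c := by
  have hf : s.Finite := Set.toFinite _
  induction s, hf using Set.Finite.induction_on with
  | empty => exact fun A _ n hn _ => ⟨n, hn, by simp, 1, one_mem _, by simp⟩
  | @insert U s hU hfin ih =>
    intro A hA n hn hnA
    obtain ⟨h, hh, hhs, c, hc, rfl⟩ := ih (fun V hV => hs V (Set.mem_insert_of_mem _ hV)) A hA n hn hnA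
    obtain ⟨hc1, hc2⟩ := mem_inf.1 hc
    have hcA : cj c A = A := cj_of_mem_norm (centralizer_le_normalizer _ hc2)
    have hA' : A ⊔ sSup s ≤ T := sup_le hA (sSup_le fun V hV => (hs V (Set.mem_insert_of_mem _ hV)).2)
    have hcjs : cj h (sSup s) = sSup s := cj_sSup h s fun V hV => cj_of_mem_norm (hhs V hV)
    have hA'' : cj h (A ⊔ sSup s) ≤ T := by
      rw [cj_sup, hcjs]
      refine sup_le ?_ (le_sup_right.trans hA')
      rwa [cj_mul, hcA] at hnA
    obtain ⟨k, hk, d, hd, rfl⟩ := (hs U (Set.mem_insert _ _)).1 (A ⊔ sSup s) hA' h hh hA''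
    obtain ⟨hk1, hk2⟩ := mem_inf.1 hk
    obtain ⟨hd1, hd2⟩ := mem_inf.1 hd
    refine ⟨k, hk1, ?_, d * c, mem_inf.2 ⟨mul_mem hd1 hc1, mul_mem ?_ hc2⟩, by group⟩
    · intro V hV
      rcases Set.mem_insert_iff.1 hV with rfl | hV
      · exact hk2
      · have h1 := hhs V hV
        have h2 : d ∈ centralizer (V : Set G) := centralizer_le (SetLike.coe_subset_coe.2 ((le_sSup hV).trans le_sup_right)) hd2
        have h3 := mul_mem h1 (inv_mem (centralizer_le_normalizer _ h2))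
        simpa using h3
    · exact centralizer_le (SetLike.coe_subset_coe.2 le_sup_left) hd2

theorem lift_control {N : Subgroup G} [hNn : N.Normal] (P : Sylow p G) {V W : Subgroup G}
    (hV : V ≤ (P : Subgroup G) ⊓ N) (hctrl : NCtrl N ((P : Subgroup G) ⊓ N) V)
    (hW : W = sSup {U : Subgroup G | ∃ x ∈ normalizer (((P : Subgroup G) ⊓ N : Subgroup G) : Set G), U = cj x V})
    {D : Subgroup G} (hD : D ≤ (P : Subgroup G)) (hrad : Rad p (P : Subgroup G) D) :
    normalizer (D : Set G) ≤ normalizer (W : Set G) := by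
  obtain ⟨T, hT⟩ : ∃ T, T = (P : Subgroup G) ⊓ N := ⟨_, rfl⟩
  rw [← hT] at hctrl hW hV
  obtain ⟨s, hs⟩ : ∃ s : Set (Subgroup G), s = {U : Subgroup G | ∃ x ∈ normalizer (T : Set G), U = cj x V} := ⟨_, rfl⟩
  rw [← hs] at hW
  have hNtop : ∀ x : G, x ∈ normalizer (N : Set G) := fun x => by
    rw [normalizer_eq_top]; trivial
  have hTs : SylIn p T N := by
    have h1 : SylIn p (P : Subgroup G) ⊤ := sylow_sylIn_top P
    have := sylIn_inf_normal h1 (le_top : N ≤ ⊤) (fun x _ => hNtop x)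
    rwa [← hT] at this
  have hsT : ∀ U ∈ s, NCtrl N T U ∧ U ≤ T := by
    rw [hs]
    rintro U ⟨x, hx, rfl⟩
    refine ⟨hctrl.cj hx (hNtop x), ?_⟩
    rw [← cj_of_mem_norm hx]
    exact cj_mono hV
  have hWT : W ≤ T := by rw [hW]; exact sSup_le fun U hU => (hsT U hU).2
  have hTW : normalizer (T : Set G) ≤ normalizer (W : Set G) := by
    have key : ∀ x ∈ normalizer (T : Set G), cj x W ≤ W := by
      intro x hx
      rw [cj_le_iff]
      refine hW ▸ sSup_le fun U hU => ?_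
      rw [le_cj_iff, inv_inv]
      rw [hs] at hU
      obtain ⟨y, hy, rfl⟩ := hU
      rw [← cj_mul]
      rw [← hW] 
      rw [hW, hs]
      exact le_sSup ⟨x * y, mul_mem hx hy, rfl⟩
    intro x hx
    rw [mem_norm]
    exact eq_of_le_of_card_ge (key x hx) (card_cj _ _).ge
  have hctrlW : NCtrl N T W := by
    intro A hA n hn hnA
    obtain ⟨h, hh, hhs, c, hc, e⟩ := nctrl_all s hsT A hA n hn hnA
    refine ⟨h, mem_inf.2 ⟨hh, ?_⟩, c, hc, e⟩
    rw [mem_norm, hW]
    exact cj_sSup h s fun V hV => cj_of_mem_norm (hhs V hV)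
  -- Frattini
  have hfrat : ∀ g : G, ∃ n ∈ N, ∃ u ∈ normalizer (T : Set G), g = n * u := by
    intro g
    have h1 : SylIn p (cj g T) N := by
      have := hTs.cj g
      rwa [cj_of_mem_norm (hNtop g)] at this
    obtain ⟨k, hk, hk2⟩ := h1.conj hTs
    refine ⟨k⁻¹, inv_mem hk, k * g, ?_, by group⟩
    rw [mem_norm, cj_mul, hk2]
  have hPT : (P : Subgroup G) ≤ normalizer (T : Set G) := by
    rw [le_norm_iff]
    intro x hx t ht
    rw [hT] at ht ⊢
    obtain ⟨h1, h2⟩ := mem_inf.1 ht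
    exact mem_inf.2 ⟨mul_mem (mul_mem hx h1) (inv_mem hx), hNn.conj_mem _ h2 _⟩
  have hPW : (P : Subgroup G) ≤ normalizer (W : Set G) := hPT.trans hTW
  have hWP : W ≤ (P : Subgroup G) := hWT.trans (hT ▸ inf_le_left)
  have hWN : W ≤ N := hWT.trans (hT ▸ inf_le_right)
  obtain ⟨D₀, hD₀⟩ : ∃ D₀, D₀ = D ⊓ N := ⟨_, rfl⟩
  have hD₀D : D₀ ≤ D := hD₀ ▸ inf_le_left
  have hD₀T : D₀ ≤ T := by rw [hD₀, hT]; exact inf_le_inf_right _ hD
  have hDD₀ : normalizer (D : Set G) ≤ normalizer (D₀ : Set G) := by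
    intro n hn
    rw [mem_norm, hD₀, cj_inf, cj_of_mem_norm hn, cj_of_mem_norm (hNtop n)]
  obtain ⟨M, hM⟩ : ∃ M, M = (W ⊓ normalizer (D₀ : Set G)) ⊔ centralizer (D₀ : Set G) := ⟨_, rfl⟩
  have hNM : normalizer (D : Set G) ≤ normalizer (M : Set G) := by
    have key : ∀ y ∈ normalizer (D : Set G), cj y M ≤ M := by
      intro y hy
      have hyD₀ : cj y D₀ = D₀ := cj_of_mem_norm (hDD₀ hy)
      obtain ⟨n, hn, u, hu, rfl⟩ := hfrat y
      have huD₀ : cj u D₀ ≤ T := by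
        rw [← cj_of_mem_norm hu]; exact cj_mono hD₀T
      obtain ⟨h, hh, c, hc, rfl⟩ := hctrlW (cj u D₀) huD₀ n hn (by rw [← cj_mul, hyD₀]; exact hD₀T)
      obtain ⟨hh1, hh2⟩ := mem_inf.1 hh
      obtain ⟨hc1, hc2⟩ := mem_inf.1 hc
      have hcu : cj c (cj u D₀) = cj u D₀ := cj_of_mem_norm (centralizer_le_normalizer _ hc2)
      have hh3 : cj h (cj u D₀) = D₀ := by
        rw [← hcu, ← cj_mul, ← cj_mul]
        exact hyD₀
      have e1 : cj u M = (W ⊓ normalizer (cj u D₀ : Set G)) ⊔ centralizer (cj u D₀ : Set G) := by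
        rw [hM, cj_sup, cj_inf, cj_of_mem_norm (hTW hu), cj_normalizer, cj_centralizer]
      have e2 : cj c (cj u M) ≤ cj u M := by
        intro x hx
        have hcm : c ∈ cj u M := by rw [e1]; exact mem_sup_right hc2
        have := mem_cj.1 hx
        have h2 := mul_mem (mul_mem hcm this) (inv_mem hcm)
        simpa [mul_assoc] using h2
      have e3 : cj h (cj u M) = M := by
        rw [e1, cj_sup, cj_inf, cj_of_mem_norm hh2, cj_normalizer, cj_centralizer, hh3, hM]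
      rw [cj_mul, cj_mul, ← e3]
      rw [e3]
      calc cj h (cj c (cj u M)) ≤ cj h (cj u M) := cj_mono e2
        _ = M := e3
    intro y hy
    rw [mem_norm]
    exact eq_of_le_of_card_ge (key y hy) (card_cj _ _).ge
  have hWD : W ≤ D := by
    refine le_of_inf_norm_le P.2 hD hWP hPW ?_
    have h1 := hrad (qStab D D₀ ⊓ M) (fun x hx => (mem_inf.1 hx).1.1) ?_ ?_ ?_
    · refine le_trans ?_ h1
      intro a ha
      obtain ⟨ha1, ha2⟩ := mem_inf.1 ha
      refine mem_inf.2 ⟨hWP ha1, mem_inf.2 ⟨⟨ha2, hDD₀ ha2, fun d hd => ?_⟩, ?_⟩⟩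
      · rw [hD₀]
        refine mem_inf.2 ⟨mul_mem ((Subgroup.mem_normalizer_iff.1 ha2 _).1 hd) (inv_mem hd), ?_⟩
        have e : a * d * a⁻¹ * d⁻¹ = a * (d * a⁻¹ * d⁻¹) := by group
        rw [e]
        exact mul_mem (hWN ha1) (hNn.conj_mem _ (inv_mem (hWN ha1)) _)
      · rw [hM]
        exact mem_sup_left (mem_inf.2 ⟨ha1, hDD₀ ha2⟩)
    · intro n hn
      rw [mem_norm]
      have e : cj n (qStab D D₀ ⊓ M) = cj n (qStab D D₀) ⊓ cj n M := cj_inf _ _ _
      rw [e, cj_of_mem_norm (hNM hn), cj_of_mem_norm (norm_le_norm_qStab hDD₀ hn)]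
    · refine le_inf (centralizer_le_qStab hD₀D) ?_
      rw [hM]
      exact (centralizer_le hD₀D).trans le_sup_right
    · intro x hx
      obtain ⟨hx1, hx2⟩ := mem_inf.1 hx
      -- a p-power of x centralizes D₀
      have h2 : ∃ k : ℕ, x ^ p ^ k ∈ centralizer (D₀ : Set G) := by
        have hn : W ⊓ normalizer (D₀ : Set G) ≤ normalizer ((centralizer (D₀ : Set G) : Subgroup G) : Set G) := by
          intro y hy
          rw [mem_norm, cj_centralizer, cj_of_mem_norm (mem_inf.1 hy).2]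
        have hx2' : x ∈ ((M : Subgroup G) : Set G) := hx2
        rw [hM, coe_mul_of_left_le_normalizer_right _ _ hn] at hx2'
        obtain ⟨w, hw, c, hc, hwc⟩ := hx2'
        have hw' : w ∈ W ⊓ normalizer (D₀ : Set G) := hw
        obtain ⟨k, hk⟩ := (P.2.to_le hWP) ⟨w, (mem_inf.1 hw').1⟩
        have hk' : w ^ p ^ k = 1 := by simpa using congrArg Subtype.val hk
        refine ⟨k, ?_⟩
        have hnk : ∀ m : ℕ, (w ^ m)⁻¹ * (w * c) ^ m ∈ centralizer (D₀ : Set G) := by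
          intro m
          induction m with
          | zero => simp
          | succ m ihm =>
            have e : (w ^ (m + 1))⁻¹ * (w * c) ^ (m + 1) = (w⁻¹ * ((w ^ m)⁻¹ * (w * c) ^ m) * w) * c := by
              rw [pow_succ, pow_succ]; group
            rw [e]
            refine mul_mem ?_ hc
            have := (Subgroup.mem_normalizer_iff.1 (inv_mem (hn hw')) _).1 ihm
            simpa [mul_assoc] using this
        have := hnk (p ^ k)
        rw [hk', inv_one, one_mul] at this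
        have hwc' : w * c = x := hwc
        rwa [hwc'] at this
      obtain ⟨k, hk⟩ := h2
      obtain ⟨m, hm⟩ := pow_mem_centralizer (P.2.to_le (hD₀D.trans hD)) (pow_mem hx1 (p ^ k)) hk
      refine ⟨k + m, ?_⟩
      rw [pow_add, pow_mul]; exact hm
  intro g hg
  obtain ⟨n, hn, u, hu, rfl⟩ := hfrat g
  have huW := hTW hu
  have h1 : cj n W ≤ T := by
    have h2 : cj (n * u) W ≤ D := by
      rw [← cj_of_mem_norm hg]; exact cj_mono hWD
    rw [cj_mul, cj_of_mem_norm huW] at h2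
    rw [hT]
    refine le_inf (h2.trans hD) ?_
    rw [← cj_of_mem_norm (hNtop n)]
    exact cj_mono hWN
  obtain ⟨h, hh, c, hc, rfl⟩ := hctrlW W hWT n hn h1
  exact mul_mem (mul_mem (mem_inf.1 hh).2 (centralizer_le_normalizer _ (mem_inf.1 hc).2)) huW

end

end Cfsg.Agent.H6
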