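import Cfsg.Agent.H6.WeakClosure3
import Cfsg.Agent.H6.KWeak
import Cfsg.Agent.H6.SolvCons

set_option autoImplicit false
set_option linter.unusedSectionVars false
set_option linter.unusedSimpArgs false
set_option linter.unusedVariables false
set_option linter.style.haveILetI false
open Cfsg
open scoped commutatorElement

namespace Cfsg.Agent.H6

section
variable {G : Type*} [Group G] [Finite G] {p : ℕ} [hp : Fact p.Prime]

/-- the norm map splits off the central part of `Z(S)` -/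
theorem norm_split (S : Sylow p G) {Y : Subgroup G} [hYn : Y.Normal] (hYab : ∀ a ∈ Y, ∀ b ∈ Y, a * b = b * a)
    (hZY : zc (S : Subgroup G) ≤ Y) (hYS : Y ≤ (S : Subgroup G)) :
    ∃ K : Subgroup G, K ≤ zc (S : Subgroup G) ∧ ((S : Subgroup G) ⊓ Subgroup.center G) ⊓ K = ⊥ ∧
      ((S : Subgroup G) ⊓ Subgroup.center G) ⊔ K = zc (S : Subgroup G) := by
  classical
  letI : CommGroup ↥Y := { (inferInstance : Group ↥Y) with mul_comm := fun a b => Subtype.ext (hYab a a.2 b b.2) }
  haveI : Fintype (G ⧸ (S : Subgroup G)) := Fintype.ofFinite _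
  set Z := zc (S : Subgroup G) with hZ
  have hZS : ∀ z ∈ Z, ∀ s ∈ (S : Subgroup G), s * z = z * s := fun z hz s hs =>
    Subgroup.mem_centralizer_iff.1 (Subgroup.mem_inf.1 hz).2 s hs
  have hconj : ∀ z : ↥Z, ∀ g : G, g * (z : G) * g⁻¹ ∈ Y := fun z g => hYn.conj_mem z (hZY z.2) g
  set F0 : ↥Z → G ⧸ (S : Subgroup G) → ↥Y := fun z q => ⟨q.out * z * q.out⁻¹, hconj z _⟩ with hF0
  have hF0val : ∀ (z : ↥Z) (g : G), F0 z (g : G ⧸ (S : Subgroup G)) = ⟨g * z * g⁻¹, hconj z g⟩ := by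
    intro z g
    obtain ⟨m, hm⟩ : ∃ m : ↥(S : Subgroup G), ((g : G ⧸ (S : Subgroup G))).out = g * m := by
      have h1 : g⁻¹ * ((g : G ⧸ (S : Subgroup G))).out ∈ (S : Subgroup G) := by
        rw [← QuotientGroup.eq]; exact (QuotientGroup.out_eq' _).symm
      exact ⟨⟨_, h1⟩, by group⟩
    apply Subtype.ext
    change ((g : G ⧸ (S : Subgroup G))).out * z * ((g : G ⧸ (S : Subgroup G))).out⁻¹ = g * z * g⁻¹
    rw [hm]
    have h2 := hZS z z.2 m m.2
    calc g * m * z * (g * m)⁻¹ = g * (m * z) * (m : G)⁻¹ * g⁻¹ := by group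
      _ = g * z * g⁻¹ := by rw [h2]; group
  set Nm : ↥Z →* ↥Y :=
    { toFun := fun z => ∏ q : G ⧸ (S : Subgroup G), F0 z q
      map_one' := by
        apply Finset.prod_eq_one
        intro q _
        apply Subtype.ext
        change q.out * ((1 : ↥Z) : G) * q.out⁻¹ = 1
        simp
      map_mul' := by
        intro a b
        rw [← Finset.prod_mul_distrib]
        apply Finset.prod_congr rfl
        intro q _
        apply Subtype.ext
        change q.out * ((a * b : ↥Z) : G) * q.out⁻¹ = q.out * a * q.out⁻¹ * (q.out * b * q.out⁻¹)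
        push_cast; group } with hNm
  have hNmc : ∀ (z : ↥Z) (h : G), h * (Nm z : G) * h⁻¹ = Nm z := by
    intro z h
    have h1 : MulAut.conjNormal h (Nm z) = Nm z := by
      change MulAut.conjNormal h (∏ q : G ⧸ (S : Subgroup G), F0 z q) = ∏ q : G ⧸ (S : Subgroup G), F0 z q
      rw [map_prod]
      have h2 : ∀ q : G ⧸ (S : Subgroup G), MulAut.conjNormal h (F0 z q) = F0 z (h • q) := by
        intro q
        obtain ⟨g, rfl⟩ := QuotientGroup.mk_surjective q
        rw [hF0val]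
        have e1 : (h • (g : G ⧸ (S : Subgroup G))) = ((h * g : G) : G ⧸ (S : Subgroup G)) := rfl
        rw [e1, hF0val]
        apply Subtype.ext
        rw [MulAut.conjNormal_apply]
        change h * (g * z * g⁻¹) * h⁻¹ = h * g * z * (h * g)⁻¹
        group
      rw [Finset.prod_congr rfl (fun q _ => h2 q)]
      exact Equiv.prod_comp (MulAction.toPerm h) (F0 z)
    have h3 := congrArg Subtype.val h1
    rwa [MulAut.conjNormal_apply] at h3
  have hNmcen : ∀ z : ↥Z, (Nm z : G) ∈ (S : Subgroup G) ⊓ Subgroup.center G := by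
    intro z
    refine ⟨hYS (Nm z).2, ?_⟩
    change (Nm z : G) ∈ Subgroup.center G
    rw [Subgroup.mem_center_iff]
    intro h
    have := hNmc z h
    rw [mul_inv_eq_iff_eq_mul] at this
    exact this
  set m := (S : Subgroup G).index with hm
  have hmcard : Fintype.card (G ⧸ (S : Subgroup G)) = m := by
    rw [hm, Subgroup.index_eq_card, Nat.card_eq_fintype_card]
  have hpm : ¬ p ∣ m := S.not_dvd_index
  have hWZ : (S : Subgroup G) ⊓ Subgroup.center G ≤ Z := inf_le_inf_left _ (Subgroup.center_le_centralizer _)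
  have hNmW : ∀ (z : ↥Z), (z : G) ∈ Subgroup.center G → (Nm z : G) = (z : G) ^ m := by
    intro z hz
    have h1 : Nm z = (⟨z, hZY z.2⟩ : ↥Y) ^ m := by
      change ∏ q : G ⧸ (S : Subgroup G), F0 z q = _
      rw [← hmcard, ← Finset.card_univ, ← Finset.prod_const]
      apply Finset.prod_congr rfl
      intro q _
      apply Subtype.ext
      change q.out * (z : G) * q.out⁻¹ = z
      rw [Subgroup.mem_center_iff.1 hz]; group
    rw [h1]; rfl
  -- powers
  have hpow : ∀ x : G, x ∈ (S : Subgroup G) → x ∈ Subgroup.zpowers (x ^ m) := by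
    intro x hx
    have h7 : m.Coprime (orderOf x) := by
      obtain ⟨k, hk⟩ := (IsPGroup.iff_orderOf.1 S.2) ⟨x, hx⟩
      rw [Subgroup.orderOf_mk] at hk
      rw [hk]
      exact (Nat.Coprime.pow_left k ((Nat.Prime.coprime_iff_not_dvd hp.out).2 hpm)).symm
    obtain ⟨k, hk⟩ := exists_pow_eq_self_of_coprime h7
    exact ⟨k, by simpa using hk⟩
  refine ⟨Nm.ker.map Z.subtype, Subgroup.map_subtype_le _, ?_, ?_⟩
  · rw [eq_bot_iff]
    rintro _ ⟨⟨hxS, hxc⟩, ⟨z, hz, rfl⟩⟩
    have h1 : (Nm z : G) = 1 := by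
      rw [MonoidHom.mem_ker.1 hz]; rfl
    rw [hNmW z hxc] at h1
    have h2 := hpow (z : G) hxS
    rw [h1] at h2
    simpa using h2
  · apply le_antisymm
    · exact sup_le hWZ (Subgroup.map_subtype_le _)
    · intro z hz
      -- choose a power
      set w := (Nm ⟨z, hz⟩ : G) with hw
      have hwc := hNmcen ⟨z, hz⟩
      obtain ⟨k, hk⟩ := hpow w (Subgroup.mem_inf.1 hwc).1
      -- `w = (w^k)^m`
      have hk' : (w ^ k) ^ m = w := by
        change (w ^ m) ^ k = w at hk
        have e : (w ^ k) ^ m = (w ^ m) ^ k := by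
          rw [← zpow_natCast, ← zpow_natCast, ← zpow_mul, ← zpow_mul, mul_comm]
        rw [e, hk]
      have huW : w ^ k ∈ (S : Subgroup G) ⊓ Subgroup.center G := Subgroup.zpow_mem _ hwc k
      have huZ : w ^ k ∈ Z := hWZ huW
      set u : ↥Z := ⟨w ^ k, huZ⟩ with hu
      have h1 : Nm (u⁻¹ * ⟨z, hz⟩) = 1 := by
        rw [map_mul, map_inv]
        have h2 : Nm u = Nm ⟨z, hz⟩ := by
          apply Subtype.ext
          rw [hNmW u (Subgroup.mem_inf.1 huW).2]
          exact hk'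
        rw [h2]; exact inv_mul_cancel _
      have e : z = w ^ k * ((u⁻¹ * ⟨z, hz⟩ : ↥Z) : G) := by
        rw [hu]; push_cast; group
      rw [e]
      refine Subgroup.mul_mem_sup huW ⟨u⁻¹ * ⟨z, hz⟩, MonoidHom.mem_ker.2 h1, rfl⟩

/-- the elements weakly closed in `S` -/
theorem wc_split (S : Sylow p G) {Q : Subgroup G} (hQS : Q ≤ (S : Subgroup G))
    (hSN : (S : Subgroup G) ≤ Subgroup.normalizer (Q : Set G)) (hZQ : zc (S : Subgroup G) ≤ Q)
    (hwc : ∀ x ∈ (S : Subgroup G) ⊓ Subgroup.centralizer ((Subgroup.normalizer (Q : Set G) : Subgroup G) : Set G),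
      ∀ g : G, g * x * g⁻¹ ∈ (S : Subgroup G) → g * x * g⁻¹ = x) :
    ∃ W K : Subgroup G, (∀ x : G, x ∈ W ↔ (x ∈ (S : Subgroup G) ∧ ∀ g : G, g * x * g⁻¹ ∈ (S : Subgroup G) → g * x * g⁻¹ = x)) ∧
      K ≤ zc (S : Subgroup G) ∧ W ⊓ K = ⊥ ∧ W ⊔ K = zc (S : Subgroup G) := by
  set N := Subgroup.normalizer (Q : Set G) with hN
  have hfull : ∀ x : G, x ∈ (S : Subgroup G) ⊓ Subgroup.centralizer (N : Set G) ↔
      (x ∈ (S : Subgroup G) ∧ ∀ g : G, g * x * g⁻¹ ∈ (S : Subgroup G) → g * x * g⁻¹ = x) := by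
    intro x
    constructor
    · intro hx
      exact ⟨(Subgroup.mem_inf.1 hx).1, hwc x hx⟩
    · rintro ⟨hxS, hx⟩
      have hxZ : x ∈ zc (S : Subgroup G) := by
        refine ⟨hxS, ?_⟩
        change x ∈ Subgroup.centralizer _
        rw [Subgroup.mem_centralizer_iff]
        intro s hs
        have h1 := hx s (Subgroup.mul_mem _ (Subgroup.mul_mem _ hs hxS) (Subgroup.inv_mem _ hs))
        exact mul_inv_eq_iff_eq_mul.1 h1
      refine ⟨hxS, ?_⟩
      change x ∈ Subgroup.centralizer _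
      rw [Subgroup.mem_centralizer_iff]
      intro n hn
      have h1 := hx n (hQS ((Subgroup.mem_normalizer_iff.1 hn x).1 (hZQ hxZ)))
      exact mul_inv_eq_iff_eq_mul.1 h1
  -- work in `N`
  obtain ⟨P, hP⟩ := (sylIn_of_sylow_le S hSN).exists_sylow
  have hPm : (P : Subgroup ↥N).map N.subtype = (S : Subgroup G) := by
    rw [hP, Subgroup.map_subgroupOf_eq_of_le hSN]
  have hQN : Q ≤ N := Subgroup.le_normalizer
  haveI hQn : (Q.subgroupOf N).Normal := (Subgroup.normal_subgroupOf_iff_le_normalizer hQN).2 le_rfl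
  haveI hYn : (zc (Q.subgroupOf N)).Normal := normal_of_norm (le_norm_zc (norm_of_normal _))
  have hQm : (Q.subgroupOf N).map N.subtype = Q := Subgroup.map_subgroupOf_eq_of_le hQN
  have hQP : Q.subgroupOf N ≤ (P : Subgroup ↥N) := by
    rw [← map_le_map_inj (Subgroup.subtype_injective N), hQm, hPm]
    exact hQS
  have hPQ : zc (P : Subgroup ↥N) ≤ zc (Q.subgroupOf N) := by
    refine le_inf ?_ (inf_le_right.trans (Subgroup.centralizer_le (SetLike.coe_subset_coe.2 hQP)))
    rw [← map_le_map_inj (Subgroup.subtype_injective N), hQm, map_zc (Subgroup.subtype_injective N), hPm]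
    exact hZQ
  obtain ⟨K, hK, h1, h2⟩ := norm_split P (Y := zc (Q.subgroupOf N)) (fun a ha b hb =>
    Subgroup.mem_centralizer_iff.1 (Subgroup.mem_inf.1 hb).2 a (Subgroup.mem_inf.1 ha).1) hPQ (inf_le_left.trans hQP)
  have hWm : ((P : Subgroup ↥N) ⊓ Subgroup.center ↥N).map N.subtype = (S : Subgroup G) ⊓ Subgroup.centralizer (N : Set G) := by
    ext x
    constructor
    · rintro ⟨y, ⟨hyP, hyc⟩, rfl⟩
      refine ⟨?_, ?_⟩
      · rw [← hPm]; exact ⟨y, hyP, rfl⟩
      · change (y : G) ∈ Subgroup.centralizer _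
        rw [Subgroup.mem_centralizer_iff]
        intro n hn
        exact congrArg Subtype.val (Subgroup.mem_center_iff.1 hyc ⟨n, hn⟩)
    · intro hx
      obtain ⟨hxS, hxc⟩ := Subgroup.mem_inf.1 hx
      refine ⟨⟨x, hSN hxS⟩, ⟨?_, ?_⟩, rfl⟩
      · rw [hP]; exact hxS
      · change _ ∈ Subgroup.center ↥N
        rw [Subgroup.mem_center_iff]
        intro n
        apply Subtype.ext
        exact Subgroup.mem_centralizer_iff.1 hxc n n.2
  refine ⟨(S : Subgroup G) ⊓ Subgroup.centralizer (N : Set G), K.map N.subtype, hfull, ?_, ?_, ?_⟩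
  · have := Subgroup.map_mono (f := N.subtype) hK
    rwa [map_zc (Subgroup.subtype_injective N), hPm] at this
  · rw [← hWm, ← Subgroup.map_inf_eq _ _ _ (Subgroup.subtype_injective N), h1, Subgroup.map_bot]
  · rw [← hWm, ← Subgroup.map_sup, h2, map_zc (Subgroup.subtype_injective N), hPm]

end

section
universe u
variable {G : Type u} [Group G] [Finite G] {p : ℕ} [hp : Fact p.Prime]

theorem wc_split_odd (hp2 : p ≠ 2) (S : Sylow p G) :
    ∃ W K : Subgroup G, (∀ x : G, x ∈ W ↔ (x ∈ (S : Subgroup G) ∧ ∀ g : G, g * x * g⁻¹ ∈ (S : Subgroup G) → g * x * g⁻¹ = x)) ∧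
      K ≤ zc (S : Subgroup G) ∧ W ⊓ K = ⊥ ∧ W ⊔ K = zc (S : Subgroup G) := by
  have hW : IsConjugacyFunctor p (inducedFunctor (G := G) kInfLower) := inducedFunctor_isConj (klike_lower.char) G
  refine wc_split S (Q := inducedFunctor kInfLower (S : Subgroup G)) (cf_le hW S.2) (cf_self_norm hW S.2)
    (klike_lower.zc_le' S.2) ?_
  have h : WCH p G (inducedFunctor (G := G) kInfLower) := by
    refine ⟨hW, fun P hP => klike_lower.zc_le' hP, ?_⟩
    intro H T hT h4
    obtain ⟨g, hg, hgQ, hq⟩ := klike_lower.quad_sub hT h4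
    refine ⟨g, hg, hgQ, ?_⟩
    intro U V hUV hU
    have hp2 : 2 ≤ p - 1 := by
      have h5 := hp.out.two_le
      omega
    have h6 : iterCommutator (U.map H.subtype) (Subgroup.zpowers g) 2 ≤ ⊥ := by
      rw [← hq]
      exact Subgroup.commutator_mono (Subgroup.commutator_mono hU le_rfl) le_rfl
    obtain ⟨k, hk⟩ := Nat.exists_eq_add_of_le hp2
    rw [hk]
    have h7 : ∀ k, iterCommutator (U.map H.subtype) (Subgroup.zpowers g) (2 + k) ≤ ⊥ := by
      intro k
      induction k with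
      | zero => exact h6
      | succ k ih =>
        change ⁅iterCommutator (U.map H.subtype) (Subgroup.zpowers g) (2 + k), Subgroup.zpowers g⁆ ≤ ⊥
        rw [le_bot_iff.1 ih, Subgroup.commutator_bot_left]
    exact (h7 k).trans bot_le
  exact wc_main _ G le_rfl _ h S

theorem wc_split_solvable (hs : Group.IsSolvable G) (S : Sylow p G) :
    ∃ W K : Subgroup G, (∀ x : G, x ∈ W ↔ (x ∈ (S : Subgroup G) ∧ ∀ g : G, g * x * g⁻¹ ∈ (S : Subgroup G) → g * x * g⁻¹ = x)) ∧
      K ≤ zc (S : Subgroup G) ∧ W ⊓ K = ⊥ ∧ W ⊔ K = zc (S : Subgroup G) := by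
  set O := pPrimeCore p G with hO
  have hOcop : (Nat.card ↥O).Coprime p := L0.pPrimeCore_coprime p G
  set f := QuotientGroup.mk' O with hf
  set R := (pCore p (G ⧸ O)).comap f with hR
  haveI hRn : R.Normal := inferInstance
  have hsq : Group.IsSolvable (G ⧸ O) := solvable_of_surjective (QuotientGroup.mk'_surjective O)
  have hcons : Cons p (G ⧸ O) := cons_of_solvable (L0.pPrimeCore_quotient_pPrimeCore p G) hsq
  have hSO : (S : Subgroup G) ⊓ O = ⊥ := inf_eq_bot_of_coprime S.2 hOcop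
  have hSm := (sylow_map_sylIn S O)
  have hcoreS : pCore p (G ⧸ O) ≤ (S : Subgroup G).map f := by
    have h1 := pCoreOf_le_sylIn hSm
    have etop : pCoreOf p (⊤ : Subgroup (G ⧸ O)) = pCore p (G ⧸ O) := by
      unfold pCoreOf
      exact L0.pCore_map_equiv p (Subgroup.topEquiv : (⊤ : Subgroup (G ⧸ O)) ≃* (G ⧸ O))
    rwa [etop] at h1
  set Q := (S : Subgroup G) ⊓ R with hQ
  have hZQ : zc (S : Subgroup G) ≤ Q := by
    refine le_inf inf_le_left ?_
    intro z hz
    change f z ∈ pCore p (G ⧸ O)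
    apply hcons
    rw [Subgroup.mem_centralizer_iff]
    intro y hy
    obtain ⟨s, hs, rfl⟩ := hcoreS hy
    rw [← map_mul, ← map_mul, Subgroup.mem_centralizer_iff.1 (Subgroup.mem_inf.1 hz).2 s hs]
  have hSN : (S : Subgroup G) ≤ Subgroup.normalizer (Q : Set G) :=
    le_norm_inf Subgroup.le_normalizer (norm_of_normal _)
  refine wc_split S (Q := Q) inf_le_left hSN hZQ ?_
  intro x hx g hg
  obtain ⟨hxS, hxc⟩ := Subgroup.mem_inf.1 hx
  -- Frattini: `g = d * m` with `d ∈ R`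
  obtain ⟨d, hd, m, hm, rfl⟩ := frattini' S R g
  -- `d ∈ Q O`
  have hd' : ∃ o ∈ O, ∃ s ∈ Q, d = o * s := by
    obtain ⟨s, hs, hse⟩ := hcoreS (show f d ∈ pCore p (G ⧸ O) from hd)
    have h1 : d * s⁻¹ ∈ O := by
      rw [← QuotientGroup.eq_one_iff]
      change f (d * s⁻¹) = 1
      rw [map_mul, map_inv, hse, mul_inv_cancel]
    refine ⟨d * s⁻¹, h1, s, ⟨hs, ?_⟩, by group⟩
    change f s ∈ pCore p (G ⧸ O)
    rw [hse]; exact hd
  obtain ⟨o, ho, s, hs, rfl⟩ := hd'
  have hmx : m * x = x * m := Subgroup.mem_centralizer_iff.1 hxc m hm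
  have hsx : s * x = x * s := Subgroup.mem_centralizer_iff.1 hxc s (hSN (Subgroup.mem_inf.1 hs).1)
  have e : o * s * m * x * (o * s * m)⁻¹ = o * x * o⁻¹ := by
    calc o * s * m * x * (o * s * m)⁻¹ = o * s * (m * x) * m⁻¹ * s⁻¹ * o⁻¹ := by group
      _ = o * (s * x) * s⁻¹ * o⁻¹ := by rw [hmx]; group
      _ = o * x * o⁻¹ := by rw [hsx]; group
  rw [e] at hg ⊢
  have h2 : o * x * o⁻¹ * x⁻¹ ∈ (S : Subgroup G) ⊓ O := by
    refine ⟨Subgroup.mul_mem _ hg (Subgroup.inv_mem _ hxS), ?_⟩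
    have h3 : x * o⁻¹ * x⁻¹ ∈ O := (inferInstance : O.Normal).conj_mem _ (O.inv_mem ho) x
    have e2 : o * x * o⁻¹ * x⁻¹ = o * (x * o⁻¹ * x⁻¹) := by group
    rw [e2]
    exact O.mul_mem ho h3
  rw [hSO, Subgroup.mem_bot, mul_inv_eq_one] at h2
  exact h2

end
end Cfsg.Agent.H6
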