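import Cfsg.Agent.H1.Basic
import Cfsg.Agent.H6.SnJoin

set_option autoImplicit false
set_option linter.unusedSectionVars false
set_option linter.unusedSimpArgs false
open Cfsg Subgroup
open scoped Pointwise

namespace Cfsg.Agent.H6
universe u

theorem p4_abel {X : Type u} [Group X] [Finite X] {p : ℕ} [hp : Fact p.Prime] (hP : IsPGroup p X)
    (h : IsCyclic (X ⧸ commutator X)) : ∀ a b : X, a * b = b * a := by
  classical
  haveI := hP.isNilpotent
  obtain ⟨g, hg⟩ := h.exists_generator
  obtain ⟨x, rfl⟩ := QuotientGroup.mk'_surjective _ g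
  have h1 : Subgroup.zpowers x = ⊤ := by
    by_contra hne
    obtain ⟨M, hM, hxM⟩ := (eq_top_or_exists_le_coatom (Subgroup.zpowers x)).resolve_left hne
    haveI hMn := H1.normal_of_isCoatom_of_nilpotent hM
    have hMi := H1.index_of_isCoatom_pgroup hP hM
    have hcyc : IsCyclic (X ⧸ M) := by
      apply isCyclic_of_prime_card (p := p)
      rw [← hMi]; rfl
    have hcM : commutator X ≤ M := by
      rw [_root_.commutator_def, Subgroup.commutator_le]
      intro a _ b _
      rw [← QuotientGroup.eq_one_iff, commutatorElement_def]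
      have h4 : (a : X ⧸ M) * b = b * a := by
        haveI := hcyc
        letI : CommGroup (X ⧸ M) := IsCyclic.commGroup
        exact mul_comm _ _
      simp only [QuotientGroup.mk_mul, QuotientGroup.mk_inv]
      rw [h4]; group
    apply hM.1
    rw [eq_top_iff]
    intro y _
    obtain ⟨i, hi⟩ := Subgroup.mem_zpowers_iff.mp (hg (QuotientGroup.mk' _ y))
    have h5 : (x ^ i)⁻¹ * y ∈ commutator X := by
      rw [← QuotientGroup.eq_one_iff]
      have : QuotientGroup.mk' (commutator X) ((x ^ i)⁻¹ * y) = 1 := by rw [map_mul, map_inv, map_zpow, hi, inv_mul_cancel]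
      exact this
    have h6 : y = x ^ i * ((x ^ i)⁻¹ * y) := by group
    rw [h6]
    exact M.mul_mem (hxM (Subgroup.zpow_mem_zpowers x i)) (hcM h5)
  intro a b
  obtain ⟨i, rfl⟩ := Subgroup.mem_zpowers_iff.mp (h1 ▸ Subgroup.mem_top a)
  obtain ⟨j, rfl⟩ := Subgroup.mem_zpowers_iff.mp (h1 ▸ Subgroup.mem_top b)
  rw [← zpow_add, ← zpow_add, add_comm]


section
variable {p : ℕ} [hp : Fact p.Prime]

theorem p4_ab {X : Type u} [Group X] [Finite X] {m : ℕ} (hm : m ≤ 2) (hX : Nat.card X = p ^ m) : ∀ a b : X, a * b = b * a := by
  interval_cases m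
  · rw [pow_zero] at hX
    have := (Nat.card_eq_one_iff_unique.1 hX).1
    intro a b
    exact Subsingleton.elim _ _
  · rw [pow_one] at hX
    haveI := isCyclic_of_prime_card hX
    intro a b
    exact (IsCyclic.commGroup (α := X)).mul_comm a b
  · intro a b
    exact (IsPGroup.commGroupOfCardEqPrimeSq hX).mul_comm a b

theorem cls_ab {X : Type u} [Group X] (h : ∀ a b : X, a * b = b * a) : Group.nilpotencyClass X ≤ 1 := by
  letI : CommGroup X := { (inferInstance : Group X) with mul_comm := h }
  exact CommGroup.nilpotencyClass_le_one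

theorem cls_le (n : ℕ) (hn : 2 ≤ n) : ∀ (X : Type u) [Group X] [Finite X], ∀ m ≤ n, Nat.card X = p ^ m → Group.nilpotencyClass X ≤ n - 1 := by
  induction n, hn using Nat.le_induction with
  | base =>
    intro X _ _ m hm hX
    exact cls_ab (p4_ab hm hX)
  | succ n hn ih =>
    intro X _ _ m hm hX
    have hP : IsPGroup p X := IsPGroup.of_card hX
    haveI := hP.isNilpotent
    rcases subsingleton_or_nontrivial X with hs | hnt
    · exact (cls_ab fun a b => Subsingleton.elim _ _).trans (by omega)
    · have h1 : Nat.card (X ⧸ center X) ∣ p ^ m := by rw [← hX]; exact card_quotient_dvd_card _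
      obtain ⟨k, hk, hk'⟩ := (Nat.dvd_prime_pow hp.out).1 h1
      have h2 : k < m := by
        refine lt_of_le_of_ne hk fun h => ?_
        have h3 := Subgroup.card_eq_card_quotient_mul_card_subgroup (center X)
        rw [hk', h, hX] at h3
        have h4 : Nat.card (center X) = 1 := by
          have := Nat.pos_of_ne_zero (pow_ne_zero m hp.out.ne_zero)
          exact Nat.eq_of_mul_eq_mul_left this (by rw [← h3, mul_one])
        haveI := hP.center_nontrivial
        rw [Subgroup.card_eq_one] at h4
        exact (Subgroup.nontrivial_iff_ne_bot (center X)).1 inferInstance h4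
      have h5 := ih (X ⧸ center X) k (by omega) hk'
      rw [Group.nilpotencyClass_quotient_center] at h5
      omega

/-- if P' ≤ Z(P), index P' = p², order p^4: contradiction -/
theorem p4_key {X : Type u} [Group X] [Finite X] (hX : Nat.card X = p ^ 4) (hi : (commutator X).index = p ^ 2) : ¬ commutator X ≤ center X := by
  intro hle
  have hP : IsPGroup p X := IsPGroup.of_card hX
  have hD : Nat.card (commutator X) = p ^ 2 := by
    have h1 := (commutator X).card_mul_index
    rw [hi, hX] at h1
    have : p ^ 4 = p ^ 2 * p ^ 2 := by ring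
    rw [this] at h1
    exact Nat.eq_of_mul_eq_mul_right (pow_pos hp.out.pos 2) h1
  have hcne : center X ≠ ⊤ := by
    intro h
    have : commutator X = ⊥ := by
      rw [eq_bot_iff, commutator_def, commutator_le]
      intro a _ b _
      have ha : a ∈ center X := by rw [h]; exact mem_top a
      rw [mem_bot, commutatorElement_eq_one_iff_mul_comm]
      exact (mem_center_iff.1 ha b).symm
    rw [this, Subgroup.card_bot] at hD
    have := Nat.one_lt_pow (n := 2) two_ne_zero hp.out.one_lt
    omega
  obtain ⟨x, -, hx⟩ := SetLike.exists_of_lt (lt_top_iff_ne_top.2 hcne)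
  have hcen : ∀ y : X, x * y * x⁻¹ * y⁻¹ ∈ center X := fun y => hle (commutator_mem_commutator (mem_top x) (mem_top y))
  let φ : X →* X :=
    { toFun := fun y => x * y * x⁻¹ * y⁻¹
      map_one' := by simp
      map_mul' := by
        intro y z
        have h1 := mem_center_iff.1 (hcen z) y
        calc x * (y * z) * x⁻¹ * (y * z)⁻¹ = x * y * x⁻¹ * (x * z * x⁻¹ * z⁻¹) * y⁻¹ := by group
          _ = x * y * x⁻¹ * y⁻¹ * (y * (x * z * x⁻¹ * z⁻¹)) * y⁻¹ := by group
          _ = x * y * x⁻¹ * y⁻¹ * ((x * z * x⁻¹ * z⁻¹) * y) * y⁻¹ := by rw [h1]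
          _ = _ := by group }
  have hφ : ∀ y, φ y = x * y * x⁻¹ * y⁻¹ := fun y => rfl
  -- C := center ⊔ zpowers x has index dividing p
  obtain ⟨C, hC⟩ : ∃ C, C = commutator X ⊔ zpowers x := ⟨_, rfl⟩
  have hCi : C.index ∣ p := by
    have h1 : commutator X ≤ C := by rw [hC]; exact le_sup_left
    have h2 := relIndex_mul_index h1
    rw [hi] at h2
    have h3 : (commutator X).relIndex C ≠ 1 := by
      rw [Ne, relIndex_eq_one]
      intro h
      exact hx (hle (h (by rw [hC]; exact mem_sup_right (mem_zpowers x))))
    obtain ⟨a, ha, ha'⟩ := (Nat.dvd_prime_pow hp.out).1 (Dvd.intro_left _ h2)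
    obtain ⟨b, hb, hb'⟩ := (Nat.dvd_prime_pow hp.out).1 (Dvd.intro _ h2)
    rw [ha', hb', ← pow_add] at h2
    have h4 := Nat.pow_right_injective hp.out.two_le h2
    have h5 : b ≠ 0 := by
      rintro rfl
      exact h3 (by rw [hb', pow_zero])
    have h6 : b + a = 2 := h4
    rw [ha']
    have : a ≤ 1 := by omega
    calc p ^ a ∣ p ^ 1 := pow_dvd_pow _ this
      _ = p := pow_one p
  have hCk : C ≤ φ.ker := by
    rw [hC, sup_le_iff, zpowers_le]
    constructor
    · intro d hd
      rw [MonoidHom.mem_ker, hφ]
      have := mem_center_iff.1 (hle hd) x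
      rw [this]; group
    · rw [MonoidHom.mem_ker, hφ]; group
  have hRc : Nat.card φ.range ∣ p := by
    rw [← Subgroup.index_ker]
    exact (index_dvd_of_le hCk).trans hCi
  have hRZ : φ.range ≤ center X := by
    rintro _ ⟨y, rfl⟩
    exact hcen y
  haveI hRn : φ.range.Normal := by
    constructor
    intro n hn g
    have := mem_center_iff.1 (hRZ hn) g
    rw [this, mul_inv_cancel_right]; exact hn
  obtain ⟨f, hf⟩ : ∃ f : X →* X ⧸ φ.range, f = QuotientGroup.mk' φ.range := ⟨_, rfl⟩
  have hfs : Function.Surjective f := by rw [hf]; exact QuotientGroup.mk'_surjective _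
  have hker : f.ker = φ.range := by rw [hf, QuotientGroup.ker_mk']
  have hCc : C.map f ≤ center (X ⧸ φ.range) := by
    rw [Subgroup.map_le_iff_le_comap, hC, sup_le_iff, zpowers_le]
    constructor
    · intro d hd
      rw [mem_comap, mem_center_iff]
      intro g
      obtain ⟨y, rfl⟩ := hfs g
      rw [← map_mul, ← map_mul, mem_center_iff.1 (hle hd) y]
    · rw [mem_comap, mem_center_iff]
      intro g
      obtain ⟨y, rfl⟩ := hfs g
      have h3 : f (x * y * x⁻¹ * y⁻¹) = 1 := by
        rw [← MonoidHom.mem_ker, hker]; exact ⟨y, rfl⟩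
      rw [map_mul, map_mul, map_mul, map_inv, map_inv] at h3
      exact (mul_inv_eq_iff_eq_mul.1 (mul_inv_eq_one.1 h3)).symm
  have hci : (center (X ⧸ φ.range)).index ∣ p :=
    ((index_dvd_of_le hCc).trans (index_map_dvd C hfs)).trans hCi
  have hcyc : IsCyclic ((X ⧸ φ.range) ⧸ center (X ⧸ φ.range)) := by
    rw [Subgroup.index_eq_card] at hci
    rcases (Nat.dvd_prime hp.out).1 hci with h | h
    · have := (Nat.card_eq_one_iff_unique.1 h).1
      infer_instance
    · exact isCyclic_of_prime_card h
  have hcomm : ∀ a b : X ⧸ φ.range, a * b = b * a := by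
    haveI := hcyc
    intro a b
    exact (commGroupOfCyclicCenterQuotient (QuotientGroup.mk' (center (X ⧸ φ.range))) (by rw [QuotientGroup.ker_mk'])).mul_comm a b
  have hDR : commutator X ≤ φ.range := by
    rw [commutator_def, commutator_le]
    intro a _ b _
    rw [← hker, MonoidHom.mem_ker, map_commutatorElement, commutatorElement_eq_one_iff_mul_comm]
    exact hcomm _ _
  have h7 := (card_dvd_of_le hDR).trans hRc
  rw [hD] at h7
  have h8 := Nat.le_of_dvd hp.out.pos h7
  have := hp.out.one_lt
  nlinarith

theorem s4585 {P : Type u} [Group P] [Finite P] (hP : Nat.card P = p ^ 4) :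
    (commutator P).index = p ^ 2 ↔ Group.nilpotencyClass P = 3 := by
  have hPg : IsPGroup p P := IsPGroup.of_card hP
  haveI := hPg.isNilpotent
  have hcls : ∀ h : commutator P ≤ center P, Group.nilpotencyClass P ≤ 2 := by
    intro h
    have h1 : ∀ a b : P ⧸ center P, a * b = b * a := by
      intro a b
      obtain ⟨a, rfl⟩ := QuotientGroup.mk'_surjective _ a
      obtain ⟨b, rfl⟩ := QuotientGroup.mk'_surjective _ b
      rw [← commutatorElement_eq_one_iff_mul_comm, ← map_commutatorElement, ← MonoidHom.mem_ker, QuotientGroup.ker_mk']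
      exact h (commutator_mem_commutator (mem_top _) (mem_top _))
    have h2 := cls_ab h1
    rw [Group.nilpotencyClass_quotient_center] at h2
    omega
  constructor
  · intro hi
    have h1 := cls_le (p := p) 4 (by norm_num) P 4 le_rfl hP
    have h2 : ¬ Group.nilpotencyClass P ≤ 2 := by
      intro hle
      apply p4_key hP hi
      have h3 : Group.nilpotencyClass (P ⧸ center P) ≤ 1 := by
        rw [Group.nilpotencyClass_quotient_center]; omega
      rw [Group.IsNilpotent.nilpotencyClass_le_one_iff] at h3
      rw [commutator_def, commutator_le]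
      intro a _ b _
      rw [← QuotientGroup.ker_mk' (center P), MonoidHom.mem_ker, map_commutatorElement, commutatorElement_eq_one_iff_mul_comm]
      exact h3.is_comm.comm _ _
    omega
  · intro hc
    have hdv : (commutator P).index ∣ p ^ 4 := by rw [← hP]; exact (commutator P).index_dvd_card
    obtain ⟨k, hk, hk'⟩ := (Nat.dvd_prime_pow hp.out).1 hdv
    have hD : Nat.card (commutator P) * p ^ k = p ^ 4 := by rw [← hk', (commutator P).card_mul_index, hP]
    have hna : ¬ ∀ a b : P, a * b = b * a := by
      intro h
      have := cls_ab h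
      omega
    have k2 : 2 ≤ k := by
      by_contra hcon
      apply hna
      apply p4_abel hPg
      rw [Subgroup.index_eq_card] at hk'
      have : k ≤ 1 := by omega
      interval_cases k
      · rw [pow_zero] at hk'
        have := (Nat.card_eq_one_iff_unique.1 hk').1
        infer_instance
      · rw [pow_one] at hk'
        exact isCyclic_of_prime_card hk'
    have hDk : Nat.card (commutator P) = p ^ (4 - k) := by
      have : p ^ 4 = p ^ (4 - k) * p ^ k := by rw [← pow_add]; congr 1; omega
      rw [this] at hD
      exact Nat.eq_of_mul_eq_mul_right (pow_pos hp.out.pos k) hD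
    have k3 : ¬ 3 ≤ k := by
      intro h3
      have hle : commutator P ≤ center P := by
        by_cases hb : commutator P = ⊥
        · rw [hb]; exact bot_le
        · have h4 : 4 - k = 1 := by
            by_contra hne
            have : 4 - k = 0 := by omega
            rw [this, pow_zero, Subgroup.card_eq_one] at hDk
            exact hb hDk
          rw [h4, pow_one] at hDk
          have h5 : commutator P ⊓ center P ≠ ⊥ := by
            have := H1.inf_center_ne_bot (commutator P) hb
            exact this
          have h6 : Nat.card ↥(commutator P ⊓ center P) ∣ p := by rw [← hDk]; exact card_dvd_of_le inf_le_left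
          rcases (Nat.dvd_prime hp.out).1 h6 with h7 | h7
          · exact absurd (Subgroup.card_eq_one.1 h7) h5
          · have := Subgroup.eq_of_le_of_card_ge (inf_le_left : commutator P ⊓ center P ≤ commutator P) (by rw [h7, hDk])
            rw [← this]; exact inf_le_right
      have := hcls hle
      omega
    have : k = 2 := by omega
    rw [hk', this]

end

end Cfsg.Agent.H6
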