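import Cfsg.Agent.H6.SnJoin

set_option autoImplicit false
set_option linter.unusedSectionVars false
set_option linter.unusedSimpArgs false
open Cfsg Subgroup
open scoped Pointwise

namespace Cfsg.Agent.H6

theorem idx_formula {P : Type*} [Group P] [Finite P] (p : ℕ) [hp : Fact p.Prime] (N : Subgroup P) [hNn : N.Normal] (hN : N.index = p)
    {x : P} (hx : x ∉ N) : (commutator P).index * Nat.card (commutator N) =
      p * Nat.card {n : N // x * n * x⁻¹ * (n : P)⁻¹ ∈ (commutator N).map N.subtype} := by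
  obtain ⟨D, hD⟩ : ∃ D, D = (commutator N).map N.subtype := ⟨_, rfl⟩
  have hDc : Nat.card ↥D = Nat.card (commutator N) := by rw [hD]; exact Subgroup.card_map_of_injective N.subtype_injective
  have hDN : D ≤ N := by rw [hD]; exact map_subtype_le _
  haveI hDn : D.Normal := by rw [hD]; exact L0.normal_map_subtype_of_characteristic _
  have hDcomm : ∀ a ∈ N, ∀ b ∈ N, a * b * a⁻¹ * b⁻¹ ∈ D := by
    intro a ha b hb
    rw [hD]
    exact ⟨_, commutator_mem_commutator (mem_top (⟨a, ha⟩ : ↥N)) (mem_top (⟨b, hb⟩ : ↥N)), rfl⟩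
  obtain ⟨f, hf⟩ : ∃ f : P →* P ⧸ D, f = QuotientGroup.mk' D := ⟨_, rfl⟩
  have hker : f.ker = D := by rw [hf, QuotientGroup.ker_mk']
  have hfs : Function.Surjective f := by rw [hf]; exact QuotientGroup.mk'_surjective _
  have hmk : ∀ y, f y = 1 ↔ y ∈ D := fun y => by
    constructor
    · intro h
      have h' : y ∈ f.ker := h
      rw [hker] at h'
      exact h'
    · intro h
      have h' : y ∈ f.ker := by rw [hker]; exact h
      exact h'
  have hfc : ∀ a ∈ N, ∀ b ∈ N, f a * f b = f b * f a := by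
    intro a ha b hb
    have h3 : a * b * a⁻¹ * b⁻¹ ∈ f.ker := by rw [hker]; exact hDcomm a ha b hb
    rw [MonoidHom.mem_ker, map_mul, map_mul, map_mul, map_inv, map_inv] at h3
    exact mul_inv_eq_iff_eq_mul.1 (mul_inv_eq_one.1 h3)
  have hconj : ∀ n ∈ N, x * n * x⁻¹ ∈ N := fun n hn => hNn.conj_mem n hn x
  -- the hom
  let ψ : ↥N →* P ⧸ D :=
    { toFun := fun n => f (x * n * x⁻¹ * (n : P)⁻¹)
      map_one' := by simp
      map_mul' := by
        intro a b
        have e : x * ((a * b : ↥N) : P) * x⁻¹ * ((a * b : ↥N) : P)⁻¹ = (x * a * x⁻¹) * ((x * b * x⁻¹ * (b : P)⁻¹) * (a : P)⁻¹) := by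
          push_cast; group
        have h1 : x * b * x⁻¹ * (b : P)⁻¹ ∈ N := mul_mem (hconj b b.2) (inv_mem b.2)
        rw [e, map_mul f (x * (a : P) * x⁻¹) _, map_mul f (x * (b : P) * x⁻¹ * (b : P)⁻¹) _, hfc _ h1 _ (inv_mem a.2), ← mul_assoc, ← map_mul f _ ((a : P)⁻¹)] }
  have hψ : ∀ n : ↥N, ψ n = f (x * n * x⁻¹ * (n : P)⁻¹) := fun n => rfl
  have hc : Nat.card {n : N // x * n * x⁻¹ * (n : P)⁻¹ ∈ (commutator N).map N.subtype} = Nat.card ψ.ker := by
    apply Nat.card_congr
    refine Equiv.subtypeEquivRight fun n => ?_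
    rw [MonoidHom.mem_ker, hψ, ← hD]
    exact (hmk _).symm
  have hNk : Nat.card ψ.ker * Nat.card ψ.range = Nat.card N := by
    rw [← Subgroup.index_ker]; exact ψ.ker.card_mul_index
  obtain ⟨R, hR⟩ : ∃ R, R = ψ.range.comap f := ⟨_, rfl⟩
  have hRc : Nat.card ↥R = Nat.card ψ.range * Nat.card ↥D := by
    have h1 : D ≤ R := by
      rw [hR]; intro d hd
      rw [mem_comap, (hmk d).2 hd]; exact one_mem _
    have h2 : R.map f = ψ.range := by rw [hR]; exact Subgroup.map_comap_eq_self_of_surjective hfs _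
    have h3 := relIndex_mul_relIndex ⊥ D R bot_le h1
    rw [relIndex_bot_left, relIndex_bot_left] at h3
    have h4 : Nat.card ↥(R.map f) = D.relIndex R := by
      rw [← relIndex_bot_left, ← Subgroup.map_bot f, relIndex_map_map, bot_sup_eq, hker, sup_eq_left.2 h1]
    rw [← h3, ← h4, h2, mul_comm]
  have hRN : R ≤ N := by
    intro r hr
    rw [hR] at hr
    obtain ⟨n, hn⟩ := hr
    rw [hψ] at hn
    have h1 : r * (x * n * x⁻¹ * (n : P)⁻¹)⁻¹ ∈ D := by
      rw [← hmk, map_mul, map_inv, hn, mul_inv_cancel]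
    have h2 := mul_mem (hDN h1) (mul_mem (hconj n n.2) (inv_mem n.2))
    have e : r * (x * n * x⁻¹ * (n : P)⁻¹)⁻¹ * (x * n * x⁻¹ * (n : P)⁻¹) = r := by group
    rwa [e] at h2
  have htop : N ⊔ zpowers x = ⊤ := by
    by_contra hne
    have h1 : N ≤ N ⊔ zpowers x := le_sup_left
    have h2 := relIndex_mul_index h1
    rw [hN] at h2
    rcases (Nat.dvd_prime hp.out).1 (Dvd.intro _ h2) with h | h
    · rw [relIndex_eq_one] at h
      exact hx (h (mem_sup_right (mem_zpowers x)))
    · rw [h] at h2
      have h3 := Nat.eq_of_mul_eq_mul_left hp.out.pos (h2.trans (mul_one p).symm)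
      exact hne (Subgroup.index_eq_one.1 h3)
  have hP' : commutator P = R := by
    apply le_antisymm
    · -- P/R abelian
      have hxn : ∀ n ∈ N, x * n * x⁻¹ * n⁻¹ ∈ R := by
        intro n hn
        rw [hR]; exact ⟨⟨n, hn⟩, rfl⟩
      have hDR : D ≤ R := by
        rw [hR]; intro d hd
        rw [mem_comap, (hmk d).2 hd]; exact one_mem _
      haveI hRn : R.Normal := by
        rw [← normalizer_eq_top_iff, eq_top_iff, ← htop, sup_le_iff, zpowers_le]
        have k1 : N ≤ normalizer (R : Set P) := by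
          rw [le_norm_iff]
          intro a ha b hb
          have h1 := hDR (hDcomm a ha b (hRN hb))
          have := mul_mem h1 hb
          rwa [inv_mul_cancel_right] at this
        refine ⟨k1, ?_⟩
        have key : cj x R ≤ R := by
          intro y hy
          rw [mem_cj] at hy
          have h1 : x * (x⁻¹ * y * x) * x⁻¹ * (x⁻¹ * y * x)⁻¹ ∈ R := hxn _ (hRN hy)
          have := mul_mem h1 hy
          have e : x * (x⁻¹ * y * x) * x⁻¹ * (x⁻¹ * y * x)⁻¹ * (x⁻¹ * y * x) = y := by group
          rwa [e] at this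
        rw [mem_norm]
        exact Subgroup.eq_of_le_of_card_ge key (by
          rw [show cj x R = R.map (MulAut.conj x).toMonoidHom from rfl, Subgroup.card_map_of_injective (MulAut.conj x).injective])
      obtain ⟨g, hg⟩ : ∃ g : P →* P ⧸ R, g = QuotientGroup.mk' R := ⟨_, rfl⟩
      have hgk : g.ker = R := by rw [hg, QuotientGroup.ker_mk']
      have c1 : ∀ a ∈ N, ∀ b ∈ N, g a * g b = g b * g a := by
        intro a ha b hb
        have h3 : a * b * a⁻¹ * b⁻¹ ∈ g.ker := by rw [hgk]; exact hDR (hDcomm a ha b hb)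
        rw [MonoidHom.mem_ker, map_mul, map_mul, map_mul, map_inv, map_inv] at h3
        exact mul_inv_eq_iff_eq_mul.1 (mul_inv_eq_one.1 h3)
      have c2 : ∀ a ∈ N, g x * g a = g a * g x := by
        intro a ha
        have h3 : x * a * x⁻¹ * a⁻¹ ∈ g.ker := by rw [hgk]; exact hxn a ha
        rw [MonoidHom.mem_ker, map_mul, map_mul, map_mul, map_inv, map_inv] at h3
        exact mul_inv_eq_iff_eq_mul.1 (mul_inv_eq_one.1 h3)
      have c3 : ∀ y : P, ∀ a ∈ N, g y * g a = g a * g y := by
        intro y a ha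
        have h1 : N ⊔ zpowers x ≤ (centralizer {g a}).comap g := by
          rw [sup_le_iff, zpowers_le]
          exact ⟨fun b hb => mem_comap.2 (mem_centralizer_singleton_iff.2 (c1 b hb a ha)), mem_comap.2 (mem_centralizer_singleton_iff.2 (c2 a ha))⟩
        rw [htop] at h1
        exact mem_centralizer_singleton_iff.1 (h1 (mem_top y))
      have c4 : ∀ y : P, g y * g x = g x * g y := by
        intro y
        have h1 : N ⊔ zpowers x ≤ (centralizer {g x}).comap g := by
          rw [sup_le_iff, zpowers_le]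
          exact ⟨fun b hb => mem_comap.2 (mem_centralizer_singleton_iff.2 (c2 b hb).symm), mem_comap.2 (mem_centralizer_singleton_iff.2 rfl)⟩
        rw [htop] at h1
        exact mem_centralizer_singleton_iff.1 (h1 (mem_top y))
      have c5 : ∀ y z : P, g y * g z = g z * g y := by
        intro y z
        have h1 : N ⊔ zpowers x ≤ (centralizer {g z}).comap g := by
          rw [sup_le_iff, zpowers_le]
          exact ⟨fun b hb => mem_comap.2 (mem_centralizer_singleton_iff.2 (c3 z b hb).symm), mem_comap.2 (mem_centralizer_singleton_iff.2 (c4 z).symm)⟩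
        rw [htop] at h1
        exact mem_centralizer_singleton_iff.1 (h1 (mem_top y))
      rw [_root_.commutator_def, commutator_le]
      intro a _ b _
      rw [← hgk, MonoidHom.mem_ker, map_commutatorElement, commutatorElement_eq_one_iff_mul_comm]
      exact c5 a b
    · intro r hr
      rw [hR] at hr
      obtain ⟨n, hn⟩ := hr
      rw [hψ] at hn
      have h1 : r * (x * n * x⁻¹ * (n : P)⁻¹)⁻¹ ∈ D := by
        rw [← hmk, map_mul, map_inv, hn, mul_inv_cancel]
      have hDP : D ≤ commutator P := by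
        rw [hD, _root_.commutator_def ↥N, _root_.commutator_def P, map_commutator]
        exact commutator_mono le_top le_top
      have h2 : x * n * x⁻¹ * (n : P)⁻¹ ∈ commutator P := commutator_mem_commutator (mem_top x) (mem_top (n : P))
      have h3 := mul_mem (hDP h1) h2
      have e : r * (x * n * x⁻¹ * (n : P)⁻¹)⁻¹ * (x * n * x⁻¹ * (n : P)⁻¹) = r := by group
      rwa [e] at h3
  have hfin := (commutator P).card_mul_index
  have hNi := N.card_mul_index
  rw [hN, ← hNk] at hNi
  rw [← hNi, hP', hRc, hDc] at hfin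
  rw [hc, hP']
  have hpos : 0 < Nat.card ψ.range := Nat.card_pos
  apply Nat.eq_of_mul_eq_mul_left hpos
  linarith [hfin]

end Cfsg.Agent.H6
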