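import Mathlib
import Cfsg.Prelude.Def_PLocal
import Cfsg.Prelude.Def_Local
import Cfsg.Agent.L0.Coprime
import Cfsg.Agent.L0.Core
import Cfsg.Agent.H6.PRed5
import Cfsg.Agent.H6.DualAxB

set_option autoImplicit false
open Cfsg

namespace Cfsg.Agent.H6

variable {G : Type*} [Group G] [Finite G] {p : ℕ}

/-- Hall–Higman Lemma 1.2.3. -/
theorem psolv_cent_le (hp : p.Prime) (hs : IsPSolvable p G) (hcore : pPrimeCore p G = ⊥) :
    Subgroup.centralizer ((pCore p G) : Set G) ≤ pCore p G := by
  haveI : Fact p.Prime := ⟨hp⟩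
  obtain ⟨n, H, h0, hn, hmono, hnorm, hstep⟩ := hs
  have hPn : (pCore p G).Normal := inferInstance
  have hCn : (Subgroup.centralizer ((pCore p G) : Set G)).Normal := inferInstance
  have key : ∀ i : Fin (n + 1), Subgroup.centralizer ((pCore p G) : Set G) ⊓ H i ≤ pCore p G := by
    intro i
    induction i using Fin.induction with
    | zero => rw [h0, inf_bot_eq]; exact bot_le
    | succ i ih =>
      have hn1 := hnorm i.succ
      have hn0 := hnorm i.castSucc
      obtain ⟨K, hK⟩ : ∃ K, K = Subgroup.centralizer ((pCore p G) : Set G) ⊓ H i.succ := ⟨_, rfl⟩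
      have hKn : K.Normal := by rw [hK]; exact inferInstance
      rw [← hK]
      have hle : H i.castSucc ≤ H i.succ := hmono (Fin.castSucc_le_succ i)
      rcases hstep i with ⟨m, hm⟩ | hcop
      · apply Cfsg.Agent.L0.le_pCore
        intro k
        have hk : (k : G) ∈ Subgroup.centralizer ((pCore p G) : Set G) ⊓ H i.succ := by rw [← hK]; exact k.2
        have h1 : (k : G) ^ (p ^ m) ∈ H i.castSucc := by
          rw [← hm]
          exact Subgroup.pow_relIndex_mem _ hk.2
        have h2 : (k : G) ^ (p ^ m) ∈ pCore p G := ih ⟨Subgroup.pow_mem _ hk.1 _, h1⟩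
        obtain ⟨j, hj⟩ := Cfsg.Agent.L0.pCore_isPGroup p G ⟨_, h2⟩
        refine ⟨m + j, ?_⟩
        apply Subtype.ext
        have h3 := congrArg Subtype.val hj
        simp only [Subgroup.coe_pow, Subgroup.coe_one] at h3 ⊢
        rw [pow_add, pow_mul]
        exact h3
      · obtain ⟨Z, hZ⟩ : ∃ Z, Z = Subgroup.centralizer ((pCore p G) : Set G) ⊓ H i.castSucc := ⟨_, rfl⟩
        rw [← hZ] at ih
        have hZK : Z ≤ K := by rw [hZ, hK]; exact inf_le_inf_left _ hle
        have hZn : (Z.subgroupOf K).Normal := by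
          have : Z.Normal := by rw [hZ]; exact inferInstance
          exact inferInstance
        have hZp : IsPGroup p Z := (Cfsg.Agent.L0.pCore_isPGroup p G).to_le ih
        -- p-elements of K are in Z
        have hidx : (Z.relIndex K).Coprime p := by
          have h1 : Z = H i.castSucc ⊓ K := by
            rw [hZ, hK]
            ext g
            constructor
            · rintro ⟨h1, h2⟩; exact ⟨h2, h1, hle h2⟩
            · rintro ⟨h1, h2, -⟩; exact ⟨h2, h1⟩
          rw [h1, Subgroup.inf_relIndex_right]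
          apply Nat.Coprime.coprime_dvd_left _ hcop
          have h2 : K ⊔ H i.castSucc ≤ H i.succ := sup_le (by rw [hK]; exact inf_le_right) hle
          rw [← Subgroup.relIndex_mul_relIndex (H i.castSucc) (K ⊔ H i.castSucc) (H i.succ) le_sup_right h2,
            Subgroup.relIndex_sup_right]
          exact Dvd.intro _ rfl
        have hcopr : Nat.Coprime (Nat.card (Z.subgroupOf K)) (Z.subgroupOf K).index := by
          obtain ⟨j, hj⟩ := IsPGroup.iff_card.mp hZp
          have h1 : Nat.card (Z.subgroupOf K) = p ^ j := by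
            rw [← hj, ← Cfsg.Agent.L0.card_map_subtype K (Z.subgroupOf K), Subgroup.subgroupOf_map_subtype, inf_eq_left.mpr hZK]
          rw [h1]
          exact Nat.Coprime.pow_left j hidx.symm
        obtain ⟨L, hL⟩ := Subgroup.exists_right_complement'_of_coprime hcopr
        have hZc : ∀ z ∈ Z, ∀ k ∈ K, z * k = k * z := by
          intro z hz k hk
          rw [hK] at hk
          exact Subgroup.mem_centralizer_iff.mp hk.1 z (ih hz)
        have hLn : L.Normal := by
          constructor
          intro l hl k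
          have h1 : k ∈ (Z.subgroupOf K) ⊔ L := by rw [hL.sup_eq_top]; exact Subgroup.mem_top k
          rw [Subgroup.mem_sup_of_normal_left] at h1
          obtain ⟨z, hz, l', hl', rfl⟩ := h1
          have h2 : ∀ k' : K, z * k' = k' * z := fun k' => Subtype.ext (hZc z (Subgroup.mem_subgroupOf.mp hz) k' k'.2)
          have h3 : z * l' * l * (z * l')⁻¹ = l' * l * l'⁻¹ := by
            calc z * l' * l * (z * l')⁻¹ = (z * (l' * l)) * (l'⁻¹ * z⁻¹) := by rw [mul_inv_rev, mul_assoc z l' l]
              _ = l' * l * (z * l'⁻¹) * z⁻¹ := by rw [h2 (l' * l)]; group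
              _ = l' * l * l'⁻¹ := by rw [h2 l'⁻¹]; group
          rw [h3]
          exact L.mul_mem (L.mul_mem hl' hl) (L.inv_mem hl')
        have hLcard : (Nat.card L).Coprime p := by
          have h1 := hL.card_mul_card
          have h2 := (Z.subgroupOf K).card_mul_index
          rw [← h1] at h2
          have h3 := Nat.eq_of_mul_eq_mul_left Nat.card_pos h2
          rw [← h3]
          exact hidx
        have hLbot : L = ⊥ := by
          have h1 : L ≤ pPrimeCore p K := Cfsg.Agent.L0.le_pPrimeCore hLcard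
          have h2 := Cfsg.Agent.L0.pPrimeCore_subgroup_le p K
          rw [hcore, le_bot_iff, Subgroup.map_eq_bot_iff_of_injective _ (Subgroup.subtype_injective K)] at h2
          rw [h2] at h1
          exact le_bot_iff.mp h1
        have h1 := hL.sup_eq_top
        rw [hLbot, sup_bot_eq, Subgroup.subgroupOf_eq_top] at h1
        exact h1.trans ih
  have h1 := key (Fin.last n)
  rw [hn, inf_top_eq] at h1
  exact h1

/-- `[O_p(S), A, Q] = 1`, `[A,Q] = Q` imply `Q` centralizes `O_p(S)`; general form. -/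
theorem cent_of_triple [hp : Fact p.Prime] {V A Q : Subgroup G} (hV : V.Normal) (hVp : IsPGroup p ↥V) (hQ : (Nat.card Q).Coprime p)
    (hinv : Q ≤ Subgroup.normalizer (Q : Set G)) (hAQ : Q ≤ ⁅A, Q⁆) (h : ⁅⁅V, A⁆, Q⁆ = ⊥) : ⁅V, Q⁆ = ⊥ := by
  obtain ⟨W, hW⟩ : ∃ W, W = ⁅V, A⁆ := ⟨_, rfl⟩
  rw [← hW] at h
  obtain ⟨K, hK, hKn⟩ := exists_cmod (W := W) hV
  have hQW : Q ≤ Subgroup.normalizer (W : Set G) := by
    rw [le_norm_iff]
    intro g hg b hb
    have h1 := Subgroup.mem_centralizer_iff.1 ((Subgroup.commutator_eq_bot_iff_le_centralizer.1 h) hb) g hg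
    rw [h1, mul_inv_cancel_right]; exact hb
  have hAK : A ≤ K := by
    intro a ha
    rw [hK]
    refine ⟨by rw [hW]; exact Subgroup.normalizer_commutator_ge_right _ _ ha, fun e he => ?_⟩
    have h1 := inv_mem (comm_el (A := V) (B := A) he ha)
    have e1 : (e * a * e⁻¹ * a⁻¹)⁻¹ = a * e * a⁻¹ * e⁻¹ := by group
    rw [e1] at h1
    rw [hW]; exact h1
  have hQK : Q ≤ K := by
    refine hAQ.trans ?_
    rw [Subgroup.commutator_le]
    intro a ha q hq
    have h1 := mul_mem (hAK ha) (inv_mem (le_norm_iff.1 le_rfl q (hKn (hQW hq)) a (hAK ha)))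
    have e : a * (q * a * q⁻¹)⁻¹ = a * q * a⁻¹ * q⁻¹ := by group
    rw [e] at h1
    exact h1
  refine L0.commutator_eq_bot_of_series ((Subgroup.normalizer_eq_top_iff.2 hV).ge.trans' le_top) (coprime_of_p hVp hQ)
    (Or.inr (H1.isSolvable_of_isPGroup hVp)) ?_ h
  rw [Subgroup.commutator_le]
  intro v hv q hq
  have h1 := inv_mem (((hK q).1 (hQK hq)).2 v hv)
  have e : (q * v * q⁻¹ * v⁻¹)⁻¹ = v * q * v⁻¹ * q⁻¹ := by group
  rw [e] at h1
  exact h1

end Cfsg.Agent.H6
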