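import Mathlib
import Cfsg.Prelude.Def_PLocal
import Cfsg.Agent.L0.Coprime2
import Cfsg.Agent.H6.PRed5

set_option autoImplicit false
open Subgroup

namespace Cfsg.Agent.H6

variable {G : Type*} [Group G] [Finite G] {p q : ℕ} [hp : Fact p.Prime] [hq : Fact q.Prime]

theorem twofac_half {P X A B K N W : Subgroup G}
    (hAP : A ≤ P) (hBP : B ≤ P) (hK : K = ⁅A, B⁆) (hKP : K ≤ P) (hN : N = ⁅K, P⁆) (hNn : P ≤ normalizer (N : Set G))
    (hWK : W ≤ K) (hXA : ∀ x ∈ X, ∀ a ∈ A, x * a = a * x) (hXB : X ≤ normalizer (B : Set G)) (hB : B ≤ ⁅X, B⁆)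
    (hXN : X ≤ normalizer (N : Set G)) (hXW : X ≤ normalizer (W : Set G)) (hKW : K ≤ (K ⊓ centralizer (X : Set G)) ⊔ W) : K ≤ N ⊔ W := by
  have hWN : W ≤ normalizer (N : Set G) := (hWK.trans hKP).trans hNn
  obtain ⟨M, hM⟩ : ∃ M, M = N ⊔ W := ⟨_, rfl⟩
  have hNM : N ≤ M := by rw [hM]; exact le_sup_left
  have hWM : W ≤ M := by rw [hM]; exact le_sup_right
  rw [← hM]
  have hcN : ∀ g ∈ P, ∀ k ∈ K, g * k * g⁻¹ * k⁻¹ ∈ N := by
    intro g hg k hk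
    have h1 := inv_mem (comm_el (A := K) (B := P) hk hg)
    have e : (k * g * k⁻¹ * g⁻¹)⁻¹ = g * k * g⁻¹ * k⁻¹ := by group
    rw [e] at h1
    rw [hN]; exact h1
  have hPM : P ≤ normalizer (M : Set G) := by
    rw [le_norm_iff]
    intro g hg m hm
    rw [hM] at hm
    obtain ⟨n, hn, w, hw, rfl⟩ := (L0.mem_sup_of_normalizes hWN).1 hm
    have e : g * (n * w) * g⁻¹ = (g * n * g⁻¹) * ((g * w * g⁻¹ * w⁻¹) * w) := by group
    rw [e]
    exact mul_mem (hNM (le_norm_iff.1 hNn g hg n hn)) (mul_mem (hNM (hcN g hg w (hWK hw))) (hWM hw))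
  have hXM : X ≤ normalizer (M : Set G) := by rw [hM]; exact norm_sup' hXN hXW
  -- `[X, K] ≤ M`
  have hXK : ∀ x ∈ X, ∀ k ∈ K, x * k * x⁻¹ * k⁻¹ ∈ M := by
    intro x hx
    obtain ⟨T, hT⟩ : ∃ T : Subgroup G, ∀ k, k ∈ T ↔ k ∈ normalizer (M : Set G) ∧ x * k * x⁻¹ * k⁻¹ ∈ M := by
      refine ⟨{ carrier := {k | k ∈ normalizer (M : Set G) ∧ x * k * x⁻¹ * k⁻¹ ∈ M}, mul_mem' := ?_, one_mem' := ?_, inv_mem' := ?_ }, fun k => Iff.rfl⟩
      · rintro k l ⟨hk, hk'⟩ ⟨hl, hl'⟩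
        refine ⟨mul_mem hk hl, ?_⟩
        have h1 := mul_mem hk' (le_norm_iff.1 le_rfl k hk _ hl')
        have e : x * k * x⁻¹ * k⁻¹ * (k * (x * l * x⁻¹ * l⁻¹) * k⁻¹) = x * (k * l) * x⁻¹ * (k * l)⁻¹ := by group
        rwa [e] at h1
      · refine ⟨one_mem _, ?_⟩
        have e : x * 1 * x⁻¹ * (1 : G)⁻¹ = 1 := by group
        rw [e]; exact one_mem _
      · rintro k ⟨hk, hk'⟩
        refine ⟨inv_mem hk, ?_⟩
        have h1 := le_norm_iff.1 le_rfl k⁻¹ (inv_mem hk) _ (inv_mem hk')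
        have e : k⁻¹ * (x * k * x⁻¹ * k⁻¹)⁻¹ * k⁻¹⁻¹ = x * k⁻¹ * x⁻¹ * k⁻¹⁻¹ := by group
        rwa [e] at h1
    have hKT : K ≤ T := by
      refine hKW.trans (sup_le ?_ ?_)
      · intro k hk
        rw [hT]
        refine ⟨hPM (hKP (mem_inf.1 hk).1), ?_⟩
        have h1 := mem_centralizer_iff.1 (mem_inf.1 hk).2 x hx
        have e : x * k * x⁻¹ * k⁻¹ = 1 := by rw [h1]; group
        rw [e]; exact one_mem _
      · intro k hk
        rw [hT]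
        exact ⟨hPM (hKP (hWK hk)), hWM (mul_mem (le_norm_iff.1 hXW x hx k hk) (inv_mem hk))⟩
    intro k hk
    exact ((hT k).1 (hKT hk)).2
  obtain ⟨T, hT⟩ : ∃ T : Subgroup G, ∀ b, b ∈ T ↔ b ∈ P ∧ ∀ a ∈ A, a * b * a⁻¹ * b⁻¹ ∈ M := by
    refine ⟨{ carrier := {b | b ∈ P ∧ ∀ a ∈ A, a * b * a⁻¹ * b⁻¹ ∈ M}, mul_mem' := ?_, one_mem' := ?_, inv_mem' := ?_ }, fun k => Iff.rfl⟩
    · rintro k l ⟨hk, hk'⟩ ⟨hl, hl'⟩
      refine ⟨mul_mem hk hl, fun a ha => ?_⟩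
      have h1 := mul_mem (hk' a ha) (le_norm_iff.1 hPM k hk _ (hl' a ha))
      have e : a * k * a⁻¹ * k⁻¹ * (k * (a * l * a⁻¹ * l⁻¹) * k⁻¹) = a * (k * l) * a⁻¹ * (k * l)⁻¹ := by group
      rwa [e] at h1
    · refine ⟨one_mem _, fun a _ => ?_⟩
      have e : a * 1 * a⁻¹ * (1 : G)⁻¹ = 1 := by group
      rw [e]; exact one_mem _
    · rintro k ⟨hk, hk'⟩
      refine ⟨inv_mem hk, fun a ha => ?_⟩
      have h1 := le_norm_iff.1 hPM k⁻¹ (inv_mem hk) _ (inv_mem (hk' a ha))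
      have e : k⁻¹ * (a * k * a⁻¹ * k⁻¹)⁻¹ * k⁻¹⁻¹ = a * k⁻¹ * a⁻¹ * k⁻¹⁻¹ := by group
      rwa [e] at h1
  have hBT : B ≤ T := by
    refine hB.trans ?_
    rw [commutator_le]
    intro x hx b hb
    show x * b * x⁻¹ * b⁻¹ ∈ T
    rw [hT]
    have hb' : x * b * x⁻¹ ∈ B := le_norm_iff.1 hXB x hx b hb
    refine ⟨mul_mem (hBP hb') (inv_mem (hBP hb)), fun a ha => ?_⟩
    have hk : a * b * a⁻¹ * b⁻¹ ∈ K := by rw [hK]; exact comm_el ha hb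
    have hk' : a * (x * b * x⁻¹) * a⁻¹ * (x * b * x⁻¹)⁻¹ ∈ K := by rw [hK]; exact comm_el ha hb'
    obtain ⟨k, hkk⟩ : ∃ k, k = a * b * a⁻¹ * b⁻¹ := ⟨_, rfl⟩
    obtain ⟨b', hbb⟩ : ∃ b', b' = x * b * x⁻¹ := ⟨_, rfl⟩
    rw [← hkk] at hk
    rw [← hbb] at hk' hb' ⊢
    have h1 := hXK x hx k hk
    have hxa : x * a * x⁻¹ = a := by rw [hXA x hx a ha]; group
    have e1 : x * k * x⁻¹ = a * b' * a⁻¹ * b'⁻¹ := by
      calc x * k * x⁻¹ = (x * a * x⁻¹) * (x * b * x⁻¹) * (x * a * x⁻¹)⁻¹ * (x * b * x⁻¹)⁻¹ := by rw [hkk]; group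
        _ = a * b' * a⁻¹ * b'⁻¹ := by rw [hxa, ← hbb]
    rw [e1] at h1
    obtain ⟨l, hl⟩ : ∃ l, l = a * b' * a⁻¹ * b'⁻¹ := ⟨_, rfl⟩
    rw [← hl] at h1 hk'
    have h2 : (b' * b⁻¹) * k⁻¹ * (b' * b⁻¹)⁻¹ * k⁻¹⁻¹ ∈ N := hcN _ (mul_mem (hBP hb') (inv_mem (hBP hb))) _ (inv_mem hk)
    have h3 := mul_mem (le_norm_iff.1 hPM l (hKP hk') _ (hNM h2)) h1
    have e2 : l * (b' * b⁻¹ * k⁻¹ * (b' * b⁻¹)⁻¹ * k⁻¹⁻¹) * l⁻¹ * (l * k⁻¹) = a * (b' * b⁻¹) * a⁻¹ * (b' * b⁻¹)⁻¹ := by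
      rw [hl, hkk]; group
    rwa [e2] at h3
  rw [hK, commutator_le]
  intro a ha b hb
  exact ((hT b).1 (hBT hb)).2 a ha

end Cfsg.Agent.H6

namespace Cfsg.Agent.H6

variable {G : Type*} [Group G] [Finite G] {p q : ℕ} [hp : Fact p.Prime] [hq : Fact q.Prime]

theorem twofac {P Q X₁ X₂ : Subgroup G} (hQP : Q ≤ normalizer (P : Set G)) (hP : IsPGroup p ↥P) (hQ : IsElementaryAbelian q Q)
    (hQp : (Nat.card Q).Coprime p) (hcyc : ¬ IsCyclic ↥Q)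
    (h₁ : X₁ ≤ Q) (h₂ : X₂ ≤ Q) (h₁₂ : X₁ ≠ X₂) (hc₁ : Nat.card X₁ = q) (hc₂ : Nat.card X₂ = q) (hsup : X₁ ⊔ X₂ = Q)
    (honly : ∀ X : Subgroup G, X ≤ Q → Nat.card X = q → P ⊓ centralizer (X : Set G) ≠ ⊥ → X = X₁ ∨ X = X₂) :
    ⁅P ⊓ centralizer (X₁ : Set G), P ⊓ centralizer (X₂ : Set G)⁆ = ⊥ ∧
      (P ⊓ centralizer (X₁ : Set G)) ⊓ (P ⊓ centralizer (X₂ : Set G)) = ⊥ ∧
      (P ⊓ centralizer (X₁ : Set G)) ⊔ (P ⊓ centralizer (X₂ : Set G)) = P := by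
  have hel := elab_iff.1 hQ
  have hqp : Nat.Prime q := hq.out
  have hbot : X₁ ⊓ X₂ = ⊥ := by
    by_contra h
    have h1 : Nat.card (X₁ ⊓ X₂ : Subgroup G) ∣ q := hc₁ ▸ Subgroup.card_dvd_of_le inf_le_left
    rcases (Nat.dvd_prime hqp).1 h1 with h2 | h2
    · exact h (Subgroup.card_eq_one.1 h2)
    · have h3 : X₁ ⊓ X₂ = X₁ := Subgroup.eq_of_le_of_card_ge inf_le_left (by rw [h2, hc₁])
      have h4 : X₁ ⊓ X₂ = X₂ := Subgroup.eq_of_le_of_card_ge inf_le_right (by rw [h2, hc₂])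
      exact h₁₂ (h3.symm.trans h4)
  -- `C_P(Q) = 1`
  have hCQ : P ⊓ centralizer (Q : Set G) = ⊥ := by
    obtain ⟨x₁, hx₁, hx₁n⟩ : ∃ x ∈ X₁, x ≠ 1 := by
      by_contra h
      push Not at h
      have h0 : X₁ = ⊥ := by rw [eq_bot_iff]; intro y hy; exact mem_bot.2 (h y hy)
      rw [h0, Subgroup.card_bot] at hc₁
      exact hqp.one_lt.ne hc₁
    obtain ⟨x₂, hx₂, hx₂n⟩ : ∃ x ∈ X₂, x ≠ 1 := by
      by_contra h
      push Not at h
      have h0 : X₂ = ⊥ := by rw [eq_bot_iff]; intro y hy; exact mem_bot.2 (h y hy)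
      rw [h0, Subgroup.card_bot] at hc₂
      exact hqp.one_lt.ne hc₂
    have hne1 : (x₁ : G) * x₂ ∉ X₁ := by
      intro h
      have h2 : (x₂ : G) ∈ X₁ ⊓ X₂ := ⟨(mul_mem_cancel_left hx₁).1 h, hx₂⟩
      rw [hbot, mem_bot] at h2
      exact hx₂n h2
    have hne2 : (x₁ : G) * x₂ ∉ X₂ := by
      intro h
      have h2 : (x₁ : G) ∈ X₁ ⊓ X₂ := ⟨hx₁, (mul_mem_cancel_right hx₂).1 h⟩
      rw [hbot, mem_bot] at h2
      exact hx₁n h2
    have hxQ : (x₁ : G) * x₂ ∈ Q := mul_mem (h₁ hx₁) (h₂ hx₂)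
    have hXQ : zpowers ((x₁ : G) * x₂) ≤ Q := by rwa [zpowers_le]
    have hXc : Nat.card (zpowers ((x₁ : G) * x₂)) = q := by
      rw [Nat.card_zpowers]
      refine orderOf_eq_prime (hel.2 _ hxQ) ?_
      intro h
      exact hne1 (h ▸ one_mem _)
    by_contra h
    have h3 : P ⊓ centralizer ((zpowers ((x₁ : G) * x₂) : Subgroup G) : Set G) ≠ ⊥ := by
      intro h4
      apply h
      rw [eq_bot_iff, ← h4]
      exact inf_le_inf_left _ (centralizer_le hXQ)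
    rcases honly _ hXQ hXc h3 with h5 | h5
    · exact hne1 (h5 ▸ mem_zpowers _)
    · exact hne2 (h5 ▸ mem_zpowers _)
  have hcopQ : ∀ L : Subgroup G, L ≤ P → (Nat.card Q).Coprime (Nat.card L) := fun L hL => coprime_of_p (hP.to_le hL) hQp
  -- generation
  have hgen : ∀ L : Subgroup G, L ≤ P → Q ≤ normalizer (L : Set G) → L ≤ (L ⊓ centralizer (X₁ : Set G)) ⊔ (L ⊓ centralizer (X₂ : Set G)) := by
    intro L hL hQL
    have h1 := L0.closure_centralizers_eq (E := Q) (N := L) hQ.1 hcyc hQL (hcopQ L hL)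
    have h1' : L ≤ Subgroup.closure {x | x ∈ L ∧ ∃ v ∈ Q, v ≠ 1 ∧ v * x = x * v} := h1.ge
    refine h1'.trans ?_
    rw [closure_le]
    rintro x ⟨hx, v, hv, hv1, hvx⟩
    by_cases hx1 : x = 1
    · rw [hx1]; exact one_mem _
    have hc : Nat.card (zpowers v) = q := by
      rw [Nat.card_zpowers]
      exact orderOf_eq_prime (hel.2 _ hv) hv1
    have hxc : x ∈ centralizer ((zpowers v : Subgroup G) : Set G) := by
      rw [mem_centralizer_iff]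
      intro a ha
      obtain ⟨n, rfl⟩ := mem_zpowers_iff.1 ha
      exact ((show Commute v x from hvx).zpow_left n).eq
    have hne : P ⊓ centralizer ((zpowers v : Subgroup G) : Set G) ≠ ⊥ := by
      intro h
      have h2 : x ∈ P ⊓ centralizer ((zpowers v : Subgroup G) : Set G) := ⟨hL hx, hxc⟩
      rw [h, mem_bot] at h2
      exact hx1 h2
    rcases honly _ (by rwa [zpowers_le]) hc hne with h2 | h2
    · exact mem_sup_left (mem_inf.2 ⟨hx, h2 ▸ hxc⟩)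
    · exact mem_sup_right (mem_inf.2 ⟨hx, h2 ▸ hxc⟩)
  -- `Q` normalizes `C_L(X_i)`
  have hQX : ∀ X : Subgroup G, X ≤ Q → Q ≤ normalizer (X : Set G) := by
    intro X hX
    rw [le_norm_iff]
    intro g hg x hx
    rw [hel.1 g hg x (hX hx), mul_inv_cancel_right]; exact hx
  have hQC : ∀ L X : Subgroup G, Q ≤ normalizer (L : Set G) → X ≤ Q → Q ≤ normalizer ((L ⊓ centralizer (X : Set G) : Subgroup G) : Set G) :=
    fun L X hL hX => norm_inf' hL (norm_cent (hQX X hX))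
  obtain ⟨A, hA⟩ : ∃ A, A = P ⊓ centralizer (X₁ : Set G) := ⟨_, rfl⟩
  obtain ⟨B, hB⟩ : ∃ B, B = P ⊓ centralizer (X₂ : Set G) := ⟨_, rfl⟩
  have hAP : A ≤ P := by rw [hA]; exact inf_le_left
  have hBP : B ≤ P := by rw [hB]; exact inf_le_left
  have hQA : Q ≤ normalizer (A : Set G) := by rw [hA]; exact hQC P X₁ hQP h₁
  have hQB : Q ≤ normalizer (B : Set G) := by rw [hB]; exact hQC P X₂ hQP h₂
  have hAB : A ⊔ B = P := by
    refine le_antisymm (sup_le hAP hBP) ?_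
    rw [hA, hB]; exact hgen P le_rfl hQP
  have hcap : A ⊓ B = ⊥ := by
    rw [eq_bot_iff, ← hCQ]
    rintro x ⟨hx1, hx2⟩
    rw [SetLike.mem_coe, hA] at hx1
    rw [SetLike.mem_coe, hB] at hx2
    refine mem_inf.2 ⟨hx1.1, ?_⟩
    have h3 : Q ≤ centralizer {x} := by
      rw [← hsup]
      refine sup_le ?_ ?_
      · intro y hy
        exact mem_centralizer_singleton_iff.2 (mem_centralizer_iff.1 hx1.2 y hy)
      · intro y hy
        exact mem_centralizer_singleton_iff.2 (mem_centralizer_iff.1 hx2.2 y hy)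
    rw [mem_centralizer_iff]
    intro y hy
    exact mem_centralizer_singleton_iff.1 (h3 hy)
  have hXA : ∀ x ∈ X₁, ∀ a ∈ A, x * a = a * x := by
    intro x hx a ha
    rw [hA] at ha
    exact mem_centralizer_iff.1 ha.2 x hx
  have hXB : ∀ x ∈ X₂, ∀ a ∈ B, x * a = a * x := by
    intro x hx a ha
    rw [hB] at ha
    exact mem_centralizer_iff.1 ha.2 x hx
  -- `B = [X₁, B]`
  have hB' : B ≤ ⁅X₁, B⁆ := by
    have h1 := L0.commutator_sup_centralizer (A := X₁) (N := B) (h₁.trans hQB)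
      (Nat.Coprime.coprime_dvd_left (Subgroup.card_dvd_of_le h₁) (hcopQ B hBP)) (Or.inr (H1.isSolvable_of_isPGroup (hP.to_le hBP)))
    have h2 : B ⊓ centralizer (X₁ : Set G) = ⊥ := by
      rw [eq_bot_iff, ← hcap]
      rintro x ⟨hx1, hx2⟩
      refine mem_inf.2 ⟨?_, hx1⟩
      rw [hA]; exact mem_inf.2 ⟨hBP hx1, hx2⟩
    rw [h2, sup_bot_eq, commutator_comm] at h1
    exact h1.ge
  have hA' : A ≤ ⁅X₂, A⁆ := by
    have h1 := L0.commutator_sup_centralizer (A := X₂) (N := A) (h₂.trans hQA)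
      (Nat.Coprime.coprime_dvd_left (Subgroup.card_dvd_of_le h₂) (hcopQ A hAP)) (Or.inr (H1.isSolvable_of_isPGroup (hP.to_le hAP)))
    have h2 : A ⊓ centralizer (X₂ : Set G) = ⊥ := by
      rw [eq_bot_iff, ← hcap]
      rintro x ⟨hx1, hx2⟩
      refine mem_inf.2 ⟨hx1, ?_⟩
      rw [hB]; exact mem_inf.2 ⟨hAP hx1, hx2⟩
    rw [h2, sup_bot_eq, commutator_comm] at h1
    exact h1.ge
  obtain ⟨K, hK⟩ : ∃ K, K = ⁅A, B⁆ := ⟨_, rfl⟩
  have hKP : K ≤ P := by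
    rw [hK]; exact (commutator_mono hAP hBP).trans (commutator_le_self P)
  have hPK : P ≤ normalizer (K : Set G) := by
    rw [hK]
    have : A ⊔ B ≤ normalizer ((⁅A, B⁆ : Subgroup G) : Set G) :=
      sup_le (Subgroup.normalizer_commutator_ge_left _ _) (Subgroup.normalizer_commutator_ge_right _ _)
    rwa [hAB] at this
  have hQK : Q ≤ normalizer (K : Set G) := by rw [hK]; exact norm_comm hQA hQB
  obtain ⟨N, hN⟩ : ∃ N, N = ⁅K, P⁆ := ⟨_, rfl⟩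
  have hNK : N ≤ K := by rw [hN]; exact L0.commutator_le_of_normalizes hPK
  have hPN : P ≤ normalizer (N : Set G) := by rw [hN]; exact Subgroup.normalizer_commutator_ge_right _ _
  have hQN : Q ≤ normalizer (N : Set G) := by rw [hN]; exact norm_comm hQK hQP
  have hKgen := hgen K hKP hQK
  have e1 : K ≤ N ⊔ (K ⊓ centralizer (X₂ : Set G)) :=
    twofac_half (A := A) (B := B) (X := X₁) hAP hBP hK hKP hN hPN inf_le_left hXA (h₁.trans hQB) hB' (h₁.trans hQN)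
      (h₁.trans (hQC K X₂ hQK h₂)) hKgen
  have e2 : K ≤ N ⊔ (K ⊓ centralizer (X₁ : Set G)) :=
    twofac_half (A := B) (B := A) (X := X₂) hBP hAP (by rw [hK, commutator_comm]) hKP hN hPN inf_le_left hXB (h₂.trans hQA) hA' (h₂.trans hQN)
      (h₂.trans (hQC K X₁ hQK h₁)) (hKgen.trans (le_of_eq (sup_comm _ _)))
  have hfix : ∀ X : Subgroup G, X ≤ Q → K ≤ N ⊔ (K ⊓ centralizer (X : Set G)) → ∀ x ∈ X, ∀ k ∈ K, x * k * x⁻¹ * k⁻¹ ∈ N := by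
    intro X hX hle x hx k hk
    obtain ⟨n, hn, c, hc, rfl⟩ := (L0.mem_sup_of_normalizes ((inf_le_left.trans hKP).trans hPN)).1 (hle hk)
    have h1 : x * c * x⁻¹ = c := by
      rw [mem_centralizer_iff.1 (mem_inf.1 hc).2 x hx]; group
    have e : x * (n * c) * x⁻¹ * (n * c)⁻¹ = (x * n * x⁻¹) * ((x * c * x⁻¹) * c⁻¹) * n⁻¹ := by group
    rw [e, h1, mul_inv_cancel, mul_one]
    exact mul_mem (le_norm_iff.1 hQN x (hX hx) n hn) (inv_mem hn)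
  have hKbot : K = ⊥ := by
    refine L0.eq_bot_of_commutator_eq_of_isNilpotent hP.isNilpotent hKP le_rfl ?_
    rw [← hN]
    intro k hk
    obtain ⟨m, hm, c, hc, rfl⟩ := L0.exists_mul_centralizer_of_comm_mem (A := Q) (N := K) (M := N)
      hQK hQN hNK (hcopQ K hKP) (Or.inr (H1.isSolvable_of_isPGroup (hP.to_le (hNK.trans hKP)))) hk (fun g hg => by
        rw [← hsup] at hg
        obtain ⟨y, hy, z, hz, rfl⟩ := (L0.mem_sup_of_normalizes (h₂.trans (hQX X₁ h₁))).1 hg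
        have t1 := hfix X₁ h₁ e2 y hy k hk
        have t2 := hfix X₂ h₂ e1 z hz k hk
        have t3 := inv_mem (mul_mem (le_norm_iff.1 hQN y (h₁ hy) _ t2) t1)
        have e : (y * (z * k * z⁻¹ * k⁻¹) * y⁻¹ * (y * k * y⁻¹ * k⁻¹))⁻¹ = k * (y * z) * k⁻¹ * (y * z)⁻¹ := by group
        rwa [e] at t3)
    have h3 : c ∈ P ⊓ centralizer (Q : Set G) := mem_inf.2 ⟨hKP (mem_inf.1 hc).1, (mem_inf.1 hc).2⟩
    rw [hCQ, mem_bot] at h3
    rw [h3, mul_one]; exact hm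
  rw [← hA, ← hB]
  exact ⟨by rw [← hK]; exact hKbot, hcap, hAB⟩

end Cfsg.Agent.H6
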