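import Mathlib

set_option autoImplicit false

namespace Cfsg.Agent.H6

open Polynomial

theorem zs_ordJ (p q f : ℕ) (hp : p.Prime) (hpq : ¬ p ∣ q) (hf : f ≠ 0)
    (h : (p : ℤ) ∣ (cyclotomic f ℤ).eval (q : ℤ)) : ∃ j : ℕ, f = orderOf (q : ZMod p) * p ^ j := by
  have := Fact.mk hp
  have hq0 : (q : ZMod p) ≠ 0 := by
    intro h; exact hpq ((ZMod.natCast_eq_zero_iff _ _).mp h)
  have h1 : ((p : ℤ) ∣ (Polynomial.cyclotomic f ℤ).eval (q : ℤ)) ↔
      (Polynomial.cyclotomic f (ZMod p)).IsRoot (q : ZMod p) := by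
    rw [← ZMod.intCast_zmod_eq_zero_iff_dvd, Polynomial.IsRoot.def, ← Polynomial.map_cyclotomic f (Int.castRingHom (ZMod p))]
    have := Polynomial.eval_intCast_map (Int.castRingHom (ZMod p)) (Polynomial.cyclotomic f ℤ) (q : ℤ)
    rw [Int.cast_natCast] at this
    rw [this]
    simp
  rw [h1] at h
  obtain ⟨a, u, hu, rfl⟩ := Nat.exists_eq_pow_mul_and_not_dvd hf p hp.ne_one
  have : NeZero (u : ZMod p) := ⟨fun h => hu ((ZMod.natCast_eq_zero_iff _ _).mp h)⟩
  rw [Polynomial.isRoot_cyclotomic_prime_pow_mul_iff_of_charP] at h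
  exact ⟨a, by rw [← h.eq_orderOf, mul_comm]⟩

/-- (a^m - 1) Φ_n(a) | a^n - 1. -/
theorem zs_dvd {a : ℤ} {m n : ℕ} (hmn : m ∣ n) (hlt : m < n) :
    (a ^ m - 1) * (cyclotomic n ℤ).eval a ∣ a ^ n - 1 := by
  have h := X_pow_sub_one_mul_cyclotomic_dvd_X_pow_sub_one_of_dvd ℤ (Nat.mem_properDivisors.2 ⟨hmn, hlt⟩)
  have h2 := Polynomial.eval_dvd (x := a) h
  simpa using h2

/-- odd prime: p² ∤ Φ_{mp}(a) -/
theorem zs_sq_odd {a : ℤ} {m p : ℕ} (hp : p.Prime) (hp2 : p ≠ 2) (hm : 0 < m) (ha : 1 < a)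
    (hd : (p : ℤ) ∣ a ^ m - 1) (hpa : ¬ (p : ℤ) ∣ a) :
    ¬ (p : ℤ) ^ 2 ∣ (cyclotomic (m * p) ℤ).eval a := by
  intro h2
  have h1 := zs_dvd (a := a) (m := m) (n := m * p) (Dvd.intro _ rfl) (by
    have := hp.two_le; nlinarith)
  have hpa' : ¬ (p : ℤ) ∣ a ^ m := fun h => hpa ((Nat.prime_iff_prime_int.1 hp).dvd_of_dvd_pow h)
  have hodd : Odd p := hp.odd_of_ne_two hp2
  have := Int.emultiplicity_pow_sub_pow hp hodd (x := a ^ m) (y := 1) (by simpa using hd) hpa' p
  rw [one_pow, ← pow_mul] at this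
  have hfin : FiniteMultiplicity (p : ℤ) (a ^ m - 1) := by
    rw [Int.finiteMultiplicity_iff]
    refine ⟨by simpa using hp.ne_one, ?_⟩
    have : 1 < a ^ m := one_lt_pow₀ ha hm.ne'
    omega
  have hpp : emultiplicity p p = 1 := by
    have := (Nat.finiteMultiplicity_iff.2 ⟨hp.ne_one, hp.pos⟩ : FiniteMultiplicity p p).emultiplicity_self
    exact this
  rw [hpp] at this
  have h3 : (p : ℤ) ^ (multiplicity (p : ℤ) (a ^ m - 1) + 2) ∣ a ^ (m * p) - 1 := by
    rw [pow_add]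
    exact (mul_dvd_mul (pow_multiplicity_dvd _ _) h2).trans h1
  have h4 := le_emultiplicity_of_pow_dvd h3
  rw [this, hfin.emultiplicity_eq_multiplicity] at h4
  norm_cast at h4
  omega

/-- prime 2, m even. -/
theorem zs_sq_two {a : ℤ} {m : ℕ} (hm : 0 < m) (hme : Even m) (ha : 1 < a) (ho : Odd a) :
    ¬ (2 : ℤ) ^ 2 ∣ (cyclotomic (m * 2) ℤ).eval a := by
  intro h2
  have h1 := zs_dvd (a := a) (m := m) (n := m * 2) (Dvd.intro _ rfl) (by omega)
  have hlt : 1 < a ^ m := one_lt_pow₀ ha hm.ne'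
  have h3 : a ^ (m * 2) - 1 = (a ^ m - 1) * (a ^ m + 1) := by ring
  rw [h3] at h1
  have h4 := (mul_dvd_mul_iff_left (by omega : a ^ m - 1 ≠ 0)).1 h1
  have h5 := h2.trans h4
  obtain ⟨k, rfl⟩ := hme
  obtain ⟨c, hc⟩ := ho
  have h6 : a ^ (k + k) = (a ^ k) ^ 2 := by ring
  have h7 : Odd (a ^ k) := Odd.pow ⟨c, hc⟩
  obtain ⟨e, he⟩ := h7
  rw [h6, he] at h5
  have h8 : (2 * e + 1) ^ 2 + 1 = 4 * (e ^ 2 + e) + 2 := by ring
  rw [h8] at h5
  obtain ⟨f, hf⟩ := h5
  omega

theorem zs_two_pow {r : ℕ} (h : 4 ≤ r) : 3 * r + 1 ≤ 2 ^ r := by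
  induction r, h using Nat.le_induction with
  | base => norm_num
  | succ n hn ih => rw [pow_succ]; omega

theorem zs_main (a n : ℕ) (ha : 1 < a) (hn : 2 < n) (h6 : ¬ (a = 2 ∧ n = 6)) :
    ∃ r : ℕ, r.Prime ∧ r ∣ a ^ n - 1 ∧ ∀ k : ℕ, 0 < k → k < n → ¬ r ∣ a ^ k - 1 := by
  by_contra hcon
  push Not at hcon
  have key : ∀ r : ℕ, r.Prime → (r : ℤ) ∣ (cyclotomic n ℤ).eval (a : ℤ) →
      ∃ j d : ℕ, n = d * r ^ (j + 1) ∧ d = orderOf (a : ZMod r) ∧ 0 < d ∧ d ∣ r - 1 ∧ ¬ r ∣ a := by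
    intro r hr hdv
    have := Fact.mk hr
    have h1 : (r : ℤ) ∣ (a : ℤ) ^ n - 1 := by
      refine hdv.trans ?_
      have := zs_dvd (a := (a : ℤ)) (m := 1) (n := n) (one_dvd _) (by omega)
      exact (Dvd.intro_left _ rfl).trans this
    have hpow1 : 1 ≤ a ^ n := Nat.one_le_pow _ _ (by omega)
    have h2 : r ∣ a ^ n - 1 := by
      have : ((a ^ n - 1 : ℕ) : ℤ) = (a : ℤ) ^ n - 1 := by push_cast [Nat.cast_sub hpow1]; ring
      rw [← this] at h1
      exact_mod_cast h1
    have hra : ¬ r ∣ a := by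
      intro h
      have h3 : r ∣ a ^ n := dvd_pow h (by omega)
      have h4 : r ∣ 1 := by
        have := (Nat.dvd_sub h3 h2)
        rwa [Nat.sub_sub_self hpow1] at this
      exact hr.one_lt.ne' (Nat.dvd_one.1 h4)
    have hq0 : (a : ZMod r) ≠ 0 := by
      intro h; exact hra ((ZMod.natCast_eq_zero_iff _ _).mp h)
    obtain ⟨j, hj⟩ := zs_ordJ r a n hr hra (by omega) hdv
    have hj0 : j ≠ 0 := by
      rintro rfl
      rw [pow_zero, mul_one] at hj
      obtain ⟨k, hk0, hkn, hk⟩ := hcon r hr h2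
      have h5 : (a : ZMod r) ^ k = 1 := by
        have h6 : ((a ^ k - 1 : ℕ) : ZMod r) = 0 := (ZMod.natCast_eq_zero_iff _ _).2 hk
        rw [Nat.cast_sub (Nat.one_le_pow _ _ (by omega))] at h6
        push_cast at h6
        exact sub_eq_zero.1 h6
      have h7 := Nat.le_of_dvd hk0 (orderOf_dvd_of_pow_eq_one h5)
      omega
    obtain ⟨i, rfl⟩ := Nat.exists_eq_succ_of_ne_zero hj0
    refine ⟨i, _, hj, rfl, ?_, ZMod.orderOf_dvd_card_sub_one hq0, hra⟩
    rcases Nat.eq_zero_or_pos (orderOf (a : ZMod r)) with h | h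
    · rw [h, zero_mul] at hj; omega
    · exact h
  have hpow : ∀ r : ℕ, r.Prime → (r : ℤ) ∣ (a : ℤ) ^ (orderOf (a : ZMod r)) - 1 := by
    intro r hr
    rw [← ZMod.intCast_zmod_eq_zero_iff_dvd]
    push_cast
    rw [pow_orderOf_eq_one, sub_self]
  have sq : ∀ r : ℕ, r.Prime → ¬ (r : ℤ) ^ 2 ∣ (cyclotomic n ℤ).eval (a : ℤ) := by
    intro r hr hdv
    obtain ⟨j, d, hn', hd, hd0, hdr, hra⟩ := key r hr ((dvd_pow_self _ two_ne_zero).trans hdv)
    have hm0 : 0 < d * r ^ j := Nat.mul_pos hd0 (pow_pos hr.pos _)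
    have e1 : n = (d * r ^ j) * r := by rw [hn', pow_succ, mul_assoc]
    by_cases h2 : r = 2
    · subst h2
      have hd1 : d = 1 := by simpa using hdr
      subst hd1
      rw [one_mul] at hm0 e1
      have ho : Odd (a : ℤ) := by
        rw [← Int.not_even_iff_odd, even_iff_two_dvd]
        intro h; exact hra (by exact_mod_cast h)
      have he : Even (2 ^ j) := by
        rcases j with _ | j
        · simp at e1; omega
        · exact ⟨2 ^ j, by rw [pow_succ]; ring⟩
      rw [e1] at hdv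
      exact zs_sq_two hm0 he (by exact_mod_cast ha) ho (by exact_mod_cast hdv)
    · rw [e1] at hdv
      refine zs_sq_odd hr h2 hm0 (by exact_mod_cast ha) ?_ (by exact_mod_cast hra) hdv
      have h3 := hpow r hr
      rw [← hd] at h3
      refine h3.trans ?_
      have := sub_dvd_pow_sub_pow ((a : ℤ) ^ d) 1 (r ^ j)
      rwa [one_pow, ← pow_mul] at this
  have uniq : ∀ r s : ℕ, r.Prime → s.Prime → (r : ℤ) ∣ (cyclotomic n ℤ).eval (a : ℤ) →
      (s : ℤ) ∣ (cyclotomic n ℤ).eval (a : ℤ) → ¬ r < s := by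
    intro r s hr hs hdr hds hlt
    obtain ⟨j, d, hn1, hd, hd0, hdr', hra⟩ := key r hr hdr
    obtain ⟨i, e, hn2, he, he0, hes, hsa⟩ := key s hs hds
    have h1 : s ∣ d * r ^ (j + 1) := by
      rw [← hn1, hn2]
      exact (dvd_pow_self s (Nat.succ_ne_zero i)).mul_left _
    rcases hs.dvd_mul.1 h1 with h | h
    · have := Nat.le_of_dvd hd0 h
      have h3 := Nat.le_of_dvd (by have := hr.two_le; omega) hdr'
      omega
    · have := hs.dvd_of_dvd_pow h
      have := (Nat.prime_dvd_prime_iff_eq hs hr).1 this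
      omega
  have hbig : 1 < ((cyclotomic n ℤ).eval (a : ℤ)).natAbs := by
    have := sub_one_lt_natAbs_cyclotomic_eval (n := n) (q := a) (by omega) (by omega)
    omega
  obtain ⟨r, hr, hrd⟩ := Nat.exists_prime_and_dvd hbig.ne'
  have hrdi : (r : ℤ) ∣ (cyclotomic n ℤ).eval (a : ℤ) := Int.natCast_dvd.2 hrd
  have heq : ((cyclotomic n ℤ).eval (a : ℤ)).natAbs = r := by
    obtain ⟨t, ht⟩ := hrd
    by_cases ht1 : t = 1
    · rw [ht, ht1, mul_one]
    · exfalso
      obtain ⟨s, hs, hst⟩ := Nat.exists_prime_and_dvd ht1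
      have hsd : (s : ℤ) ∣ (cyclotomic n ℤ).eval (a : ℤ) := by
        apply Int.natCast_dvd.2
        rw [ht]; exact hst.mul_left _
      rcases lt_trichotomy r s with h | h | h
      · exact uniq r s hr hs hrdi hsd h
      · subst h
        apply sq r hr
        have : ((r ^ 2 : ℕ) : ℤ) ∣ (cyclotomic n ℤ).eval (a : ℤ) := by
          apply Int.natCast_dvd.2
          rw [ht, pow_two]; exact mul_dvd_mul_left _ hst
        exact_mod_cast this
      · exact uniq s r hs hr hsd hrdi h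
  obtain ⟨j, d, hn1, hd, hd0, hdr', hra⟩ := key r hr hrdi
  have htot := sub_one_pow_totient_lt_natAbs_cyclotomic_eval (n := n) (q := a) (by omega) (by omega)
  rw [heq] at htot
  have hphi : r - 1 ≤ n.totient := by
    have h1 : r ∣ n := by rw [hn1]; exact (dvd_pow_self r (Nat.succ_ne_zero j)).mul_left _
    have h2 := Nat.le_of_dvd (Nat.totient_pos.2 (by omega)) (Nat.totient_dvd_of_dvd h1)
    rwa [Nat.totient_prime hr] at h2
  by_cases ha2 : a = 2
  · subst ha2
    have hr2 : r ≠ 2 := by rintro rfl; exact hra (dvd_refl _)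
    have hr3 : 3 ≤ r := by have := hr.two_le; omega
    rcases j with _ | j
    · rw [zero_add, pow_one] at hn1
      have hrd' : ¬ r ∣ d := by
        intro h
        have := Nat.le_of_dvd hd0 h
        have h3 := Nat.le_of_dvd (by omega) hdr'
        omega
      have hd1 : d ≠ 1 := by
        intro h
        have := Fact.mk hr
        rw [h] at hd
        have h2 := orderOf_eq_one_iff.1 hd.symm
        have h3 : ((1 : ℕ) : ZMod r) = 0 := by
          have : ((2 : ℕ) : ZMod r) = 1 + 1 := by norm_num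
          rw [this] at h2
          have : (1 : ZMod r) = 0 := by
            have h4 : (1 : ZMod r) + 1 = 1 + 0 := by rw [h2, add_zero]
            exact add_left_cancel h4
          simpa using this
        have h4 := (ZMod.natCast_eq_zero_iff _ _).1 h3
        have := Nat.le_of_dvd one_pos h4
        omega
      have hexp := cyclotomic_expand_eq_cyclotomic_mul hr hrd' ℤ
      have hev : (cyclotomic d ℤ).eval ((2 : ℤ) ^ r) = (cyclotomic n ℤ).eval (2 : ℤ) * (cyclotomic d ℤ).eval (2 : ℤ) := by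
        rw [← Polynomial.expand_eval, hexp, Polynomial.eval_mul, hn1]
      have hlow := sub_one_pow_totient_lt_natAbs_cyclotomic_eval (n := d) (q := 2 ^ r) (by omega) (by
        have : 1 < 2 ^ r := Nat.one_lt_two_pow (by omega)
        omega)
      have hup : ((cyclotomic d ℤ).eval (2 : ℤ)).natAbs ≤ 3 ^ d.totient := by
        have h1 := cyclotomic_eval_le_add_one_pow_totient (q := (2 : ℝ)) (by norm_num) d
        have h2 : (((cyclotomic d ℤ).eval (2 : ℤ) : ℤ) : ℝ) = (cyclotomic d ℝ).eval (2 : ℝ) := by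
          have := cyclotomic.eval_apply (2 : ℤ) d (algebraMap ℤ ℝ)
          simpa using this.symm
        have h3 : ((cyclotomic d ℤ).eval (2 : ℤ) : ℤ) ≤ 3 ^ d.totient := by
          have : (((cyclotomic d ℤ).eval (2 : ℤ) : ℤ) : ℝ) ≤ ((3 ^ d.totient : ℤ) : ℝ) := by
            rw [h2]; push_cast; norm_num at h1; exact h1
          exact_mod_cast this
        have h4 : 0 ≤ ((cyclotomic d ℤ).eval (2 : ℤ) : ℤ) := cyclotomic_nonneg d (by norm_num)
        zify
        rw [abs_of_nonneg h4]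
        exact h3
      have hcast : (((2 ^ r : ℕ) : ℤ)) = (2 : ℤ) ^ r := by push_cast; ring
      have hcast2 : ((2 : ℕ) : ℤ) = (2 : ℤ) := rfl
      rw [hcast, hev, Int.natAbs_mul] at hlow
      rw [hcast2] at heq
      rw [heq] at hlow
      have hlow2 : (2 ^ r - 1) ^ d.totient < r * 3 ^ d.totient := hlow.trans_le (Nat.mul_le_mul_left _ hup)
      have hphd : 0 < d.totient := Nat.totient_pos.2 hd0
      by_cases h4 : 4 ≤ r
      · have h5 := zs_two_pow h4
        have h6 : (3 * r) ^ d.totient ≤ (2 ^ r - 1) ^ d.totient := Nat.pow_le_pow_left (by omega) _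
        have h7 : r * 3 ^ d.totient ≤ (3 * r) ^ d.totient := by
          rw [mul_pow, mul_comm]
          exact Nat.mul_le_mul_left _ (Nat.le_self_pow hphd.ne' _)
        omega
      · have hr3' : r = 3 := by omega
        subst hr3'
        have : d ≤ 2 := Nat.le_of_dvd (by norm_num) hdr'
        have hd2 : d = 2 := by omega
        apply h6
        refine ⟨rfl, ?_⟩
        rw [hn1, hd2]
    · have e1 : n = (d * r ^ (j + 1)) * r := by rw [hn1]; ring
      have hdv : r ∣ d * r ^ (j + 1) := (dvd_pow_self r (Nat.succ_ne_zero j)).mul_left _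
      have hexp := cyclotomic_expand_eq_cyclotomic hr hdv ℤ
      have hev : (cyclotomic (d * r ^ (j + 1)) ℤ).eval ((2 : ℤ) ^ r) = (cyclotomic n ℤ).eval (2 : ℤ) := by
        rw [← Polynomial.expand_eval, hexp, e1]
      have h1lt : 1 < d * r ^ (j + 1) := by
        have := Nat.le_of_dvd (Nat.mul_pos hd0 (pow_pos hr.pos _)) hdv
        omega
      have hpw : 1 < 2 ^ r := Nat.one_lt_two_pow (by omega)
      have hlow := sub_one_lt_natAbs_cyclotomic_eval (n := d * r ^ (j + 1)) (q := 2 ^ r) h1lt (by omega)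
      have hcast : (((2 ^ r : ℕ) : ℤ)) = (2 : ℤ) ^ r := by push_cast; ring
      have hcast2 : ((2 : ℕ) : ℤ) = (2 : ℤ) := rfl
      rw [hcast, hev] at hlow
      rw [hcast2] at heq
      rw [heq] at hlow
      have := Nat.lt_two_pow_self (n := r)
      omega
  · have h1 : 2 ^ (r - 1) ≤ (a - 1) ^ n.totient :=
      (Nat.pow_le_pow_left (by omega) _).trans (Nat.pow_le_pow_right (by omega) hphi)
    have h2 := Nat.lt_two_pow_self (n := r - 1)
    have := hr.two_le
    omega

end Cfsg.Agent.H6
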